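import Cfsg.Agent.Lib.WeakClosureJ1.Setting

/-!
The normaliser of the elementary group of order eight induces a group of order `21` on it, and
the centraliser of the involution splits over the weak closure.
-/

set_option autoImplicit false
set_option maxRecDepth 100000
set_option synthInstance.maxSize 4000
set_option synthInstance.maxHeartbeats 400000
set_option linter.style.haveILetI false
set_option linter.unusedSectionVars false

open scoped Pointwise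

namespace CfsgLib.WeakClosureJ1.Setting

open CfsgLib.J1Order

variable {G : Type*} [Group G] [Finite G] (h : Setting G)

/-- The centraliser of the elementary group. -/
abbrev Q : Subgroup G := Subgroup.centralizer (h.E : Set G)

theorem Q_le_C : h.Q ≤ h.C := fun _ hq => Subgroup.mem_centralizer_singleton_iff.2
  (Subgroup.mem_centralizer_iff.1 hq _ h.t_mem_E).symm

theorem Q_le_NE : h.Q ≤ h.NE := Subgroup.centralizer_le_normalizer _

theorem D_le_Q : h.D ≤ h.Q := fun δ hδ => Subgroup.mem_centralizer_iff.2 (by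
  rintro _ ⟨k, -, rfl⟩
  exact h.D_comm hδ k)

theorem NE_conj_mem_E {n y : G} (hn : n ∈ h.NE) (hy : y ∈ h.E) : n * y * n⁻¹ ∈ h.E :=
  (Subgroup.mem_normalizer_iff.1 hn y).1 hy

theorem NE_conj_mem_Q {n q : G} (hn : n ∈ h.NE) (hq : q ∈ h.Q) : n * q * n⁻¹ ∈ h.Q :=
  Subgroup.mem_centralizer_iff.2 fun y hy => by
    have hy' : n⁻¹ * y * n ∈ h.E := by simpa using h.NE_conj_mem_E (inv_mem hn) hy
    have e := Subgroup.mem_centralizer_iff.1 hq _ hy'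
    calc y * (n * q * n⁻¹) = n * ((n⁻¹ * y * n) * q) * n⁻¹ := by group
      _ = n * q * n⁻¹ * y := by rw [e]; group

theorem Q_decomp {q : G} (hq : q ∈ h.Q) : ∃ v, inV v ∧ ∃ δ ∈ h.D, q = h.τ v * δ := by
  have hfix : ∀ a, inV a → q * h.τ a * q⁻¹ = h.τ a := fun a ha => by
    rw [← Subgroup.mem_centralizer_iff.1 hq _ ((h.τ_mem_E a).2 ha), mul_inv_cancel_right]
  exact h.decomp_of_fix (h.Q_le_C hq) (hfix _ (Or.inr (Or.inl rfl)))
    (hfix _ (Or.inr (Or.inr (Or.inl rfl))))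

theorem mem_D_inf_W {k : K5} (hk : h.φ k ∈ h.D) : k.2 = 1 := by
  have e : ∀ a : A5, k.2 * a = a * k.2 := fun a =>
    congrArg Prod.snd (h.inj (show h.φ (k * (1, a)) = h.φ ((1, a) * k) by
      rw [map_mul, map_mul]; exact (h.D_comm hk (1, a)).symm))
  exact center_A5 _ (e cc) (e aa)

theorem D_inf_E {x : G} (hD : x ∈ h.D) (hE : x ∈ h.E) : x = 1 ∨ x = h.t := by
  obtain ⟨k, hk, rfl⟩ := hE
  have hk2 := h.mem_D_inf_W hD
  rcases h.φ_pair k with e | e <;> rw [e, hk2, map_one]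
  · exact Or.inl rfl
  · exact Or.inr (mul_one _)

/-- The kernel of the action on `Q / E`. -/
def A : Subgroup G where
  carrier := {n | n ∈ h.NE ∧ ∀ q ∈ h.Q, n * q * n⁻¹ * q⁻¹ ∈ h.E}
  one_mem' := ⟨one_mem _, fun q _ => by simp⟩
  mul_mem' := fun {a b} ha hb => ⟨mul_mem ha.1 hb.1, fun q hq => by
    rw [show a * b * q * (a * b)⁻¹ * q⁻¹ =
      (a * (b * q * b⁻¹ * q⁻¹) * a⁻¹) * (a * q * a⁻¹ * q⁻¹) by group]
    exact mul_mem (h.NE_conj_mem_E ha.1 (hb.2 q hq)) (ha.2 q hq)⟩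
  inv_mem' := fun {a} ha => ⟨inv_mem ha.1, fun q hq => by
    have := inv_mem (ha.2 _ (h.NE_conj_mem_Q (inv_mem ha.1) hq))
    rwa [show (a * (a⁻¹ * q * a⁻¹⁻¹) * a⁻¹ * (a⁻¹ * q * a⁻¹⁻¹)⁻¹)⁻¹ = a⁻¹ * q * a⁻¹⁻¹ * q⁻¹ by
      group] at this⟩

theorem A_le : h.A ≤ h.NE := fun _ hn => hn.1

theorem A_conj {n a : G} (hn : n ∈ h.NE) (ha : a ∈ h.A) : n * a * n⁻¹ ∈ h.A := by
  refine ⟨mul_mem (mul_mem hn ha.1) (inv_mem hn), fun q hq => ?_⟩
  rw [show n * a * n⁻¹ * q * (n * a * n⁻¹)⁻¹ * q⁻¹ =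
    n * (a * (n⁻¹ * q * n⁻¹⁻¹) * a⁻¹ * (n⁻¹ * q * n⁻¹⁻¹)⁻¹) * n⁻¹ by group]
  exact h.NE_conj_mem_E hn (ha.2 _ (h.NE_conj_mem_Q (inv_mem hn) hq))

theorem cc_mem_A : h.τ cc ∈ h.A := by
  refine ⟨h.cc_mem_NE, fun q hq => ?_⟩
  obtain ⟨v, hv, δ, hδ, rfl⟩ := h.Q_decomp hq
  have e : h.τ cc * δ = δ * h.τ cc := h.D_comm hδ _
  rw [show h.τ cc * (h.τ v * δ) * (h.τ cc)⁻¹ * (h.τ v * δ)⁻¹ =
    h.τ cc * h.τ v * (δ * (h.τ cc)⁻¹ * δ⁻¹) * (h.τ v)⁻¹ by group,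
    show δ * (h.τ cc)⁻¹ * δ⁻¹ = (h.τ cc)⁻¹ by
      calc δ * (h.τ cc)⁻¹ * δ⁻¹ = (δ * h.τ cc * δ⁻¹)⁻¹ := by group
        _ = (h.τ cc)⁻¹ := by rw [← e, mul_inv_cancel_right],
    ← map_inv, ← map_inv, ← map_mul, ← map_mul, ← map_mul, h.τ_mem_E]
  exact (inV_mul _ _ (cc_V v hv) (by
    rw [inv_eq_of_mul_eq_one_right (V_not_four v hv)]; exact hv)).1

/-- An element acting trivially on `E` and on `Q / E` centralises `Q`. -/
theorem rigid {a q : G} (ha : a ∈ h.A) (haQ : a ∈ h.Q) (hq : q ∈ h.Q) : a * q = q * a := by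
  have hD : ∀ a', a' ∈ h.A → a' ∈ h.Q → ∀ δ ∈ h.D, a' * δ * a'⁻¹ * δ⁻¹ = 1 ∨
      a' * δ * a'⁻¹ * δ⁻¹ = h.t := by
    intro a' ha' haQ' δ hδ
    refine h.D_inf_E (mul_mem ?_ (inv_mem hδ)) (ha'.2 δ (h.D_le_Q hδ))
    refine h.mem_D fun k => ?_
    obtain ⟨l, hl⟩ := h.C_normalizes (inv_mem (h.Q_le_C haQ')) (⟨k, rfl⟩ : h.φ k ∈ h.φ.range)
    have e1 : a'⁻¹ * h.φ k * a'⁻¹⁻¹ = h.φ l := hl.symm
    calc a' * δ * a'⁻¹ * h.φ k * (a' * δ * a'⁻¹)⁻¹
        = a' * (δ * (a'⁻¹ * h.φ k * a'⁻¹⁻¹) * δ⁻¹) * a'⁻¹ := by group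
      _ = h.φ k := by rw [e1, ← h.D_comm hδ l, mul_inv_cancel_right, ← e1]; group
  have huE : h.τ uu ∈ h.E := (h.τ_mem_E _).2 (Or.inr (Or.inl rfl))
  obtain ⟨n, hn, hnt⟩ := h.exists_NE_conj' huE
    (fun e => gen_uu.2.2.2.2.1 (h.τ_inj (e.trans (map_one _).symm)))
  have hq' := h.NE_conj_mem_Q (inv_mem hn) hq
  obtain ⟨v, hv, δ, hδ, e1⟩ := h.Q_decomp hq
  obtain ⟨v', hv', δ', hδ', e2⟩ := h.Q_decomp hq'
  have hcomm : ∀ y ∈ h.E, a * y = y * a := fun y hy => (Subgroup.mem_centralizer_iff.1 haQ y hy).symm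
  have k1 : a * q * a⁻¹ * q⁻¹ = a * δ * a⁻¹ * δ⁻¹ := by
    have := hcomm _ ((h.τ_mem_E v).2 hv)
    have hδc : ∀ y ∈ h.E, y * (a * δ * a⁻¹ * δ⁻¹) = (a * δ * a⁻¹ * δ⁻¹) * y := fun y hy =>
      h.E_comm hy (ha.2 δ (h.D_le_Q hδ))
    rw [e1, ← mul_assoc a, this,
      show h.τ v * a * δ * a⁻¹ * (h.τ v * δ)⁻¹ = h.τ v * (a * δ * a⁻¹ * δ⁻¹) * (h.τ v)⁻¹ by group,
      hδc _ ((h.τ_mem_E v).2 hv), mul_inv_cancel_right]
  set a' := n⁻¹ * a * n⁻¹⁻¹ with ha'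
  have haA' : a' ∈ h.A := h.A_conj (inv_mem hn) ha
  have haQ2 : a' ∈ h.Q := h.NE_conj_mem_Q (inv_mem hn) haQ
  have k2 : a * q * a⁻¹ * q⁻¹ = n * (a' * δ' * a'⁻¹ * δ'⁻¹) * n⁻¹ := by
    have h1 : h.τ v' * (a' * δ' * a'⁻¹ * δ'⁻¹) * (h.τ v')⁻¹ = a' * δ' * a'⁻¹ * δ'⁻¹ := by
      rw [h.E_comm ((h.τ_mem_E v').2 hv') (haA'.2 δ' (h.D_le_Q hδ')), mul_inv_cancel_right]
    have h2 := (Subgroup.mem_centralizer_iff.1 haQ2 _ ((h.τ_mem_E v').2 hv')).symm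
    rw [← h1, show h.τ v' * (a' * δ' * a'⁻¹ * δ'⁻¹) * (h.τ v')⁻¹ =
      h.τ v' * a' * δ' * a'⁻¹ * (h.τ v' * δ')⁻¹ by group, ← h2, mul_assoc a', ← e2, ha']
    group
  have hE := ha.2 q hq
  rcases hD a ha haQ δ hδ with e | e
  · exact mul_inv_eq_iff_eq_mul.1 (mul_inv_eq_one.1 (k1.trans e))
  · exfalso
    rcases hD a' haA' haQ2 δ' hδ' with e' | e'
    · rw [k1, e, e', mul_one, mul_inv_cancel] at k2
      exact h.t_ne_one k2
    · rw [k1, e, e', hnt] at k2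
      have := congrArg Prod.fst (h.inj (show h.φ zK = h.φ (1, uu) from k2))
      exact absurd this (show ¬ (Multiplicative.ofAdd 1 : Multiplicative (ZMod 2)) = 1 by decide)

/-- The action on the elementary group. -/
noncomputable def act : h.NE →* MulAut h.E := Subgroup.normalizerMonoidHom h.E

theorem act_apply (n : h.NE) (y : h.E) : ((h.act n y : h.E) : G) = (n : G) * y * (n : G)⁻¹ := rfl

theorem act_eq_one {n : h.NE} : h.act n = 1 ↔ (n : G) ∈ h.Q := by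
  rw [← MonoidHom.mem_ker, act, Subgroup.normalizerMonoidHom_ker]
  rfl

theorem card_compl : ({1}ᶜ : Set h.E).ncard = 7 := by
  rw [Set.ncard_compl, Set.ncard_singleton, E, Subgroup.card_map_of_injective h.inj, card_subE]

/-- The induced group has order `21`. -/
theorem card_range : Nat.card h.act.range = 21 := by
  classical
  let y₀ : h.E := ⟨h.t, h.t_mem_E⟩
  have horb : MulAction.orbit h.act.range y₀ = {1}ᶜ := by
    ext y
    rw [Set.mem_compl_singleton_iff]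
    constructor
    · rintro ⟨⟨_, n, rfl⟩, rfl⟩ e
      have : (n : G) * h.t * (n : G)⁻¹ = 1 := congrArg Subtype.val e
      exact h.t_ne_one (by
        calc h.t = (n : G)⁻¹ * ((n : G) * h.t * (n : G)⁻¹) * n := by group
          _ = 1 := by rw [this]; group)
    · intro hy
      obtain ⟨n, hn, e⟩ := h.exists_NE_conj' y.2 (fun e => hy (Subtype.ext e))
      exact ⟨⟨_, ⟨n, hn⟩, rfl⟩, Subtype.ext e⟩
  set c : h.act.range := ⟨_, ⟨h.τ cc, h.cc_mem_NE⟩, rfl⟩ with hc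
  have hc3 : orderOf c = 3 := by
    haveI : Fact (Nat.Prime 3) := ⟨by norm_num⟩
    refine orderOf_eq_prime ?_ fun e => ?_
    · apply Subtype.ext
      show h.act ⟨h.τ cc, h.cc_mem_NE⟩ ^ 3 = 1
      rw [← map_pow, show (⟨h.τ cc, h.cc_mem_NE⟩ : h.NE) ^ 3 = 1 from Subtype.ext (by
        show h.τ cc ^ 3 = 1
        rw [← map_pow, gen_uu.2.2.2.2.2.2.2.2.2.1, map_one]), map_one]
    · have hQ : h.τ cc ∈ h.Q := (h.act_eq_one).1 (congrArg Subtype.val e)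
      have := Subgroup.mem_centralizer_iff.1 hQ _ ((h.τ_mem_E uu).2 (Or.inr (Or.inl rfl)))
      rw [← map_mul, ← map_mul] at this
      exact gen_uu.2.2.2.2.1 (cc_moves uu (Or.inr (Or.inl rfl)) (h.τ_inj this).symm)
  have hstab : MulAction.stabilizer h.act.range y₀ = Subgroup.zpowers c := by
    refine le_antisymm ?_ (Subgroup.zpowers_le.2 (MulAction.mem_stabilizer_iff.2 (Subtype.ext h.cc_conj_t)))
    rintro ⟨_, n, rfl⟩ hn
    have e : (n : G) * h.t * (n : G)⁻¹ = h.t := congrArg Subtype.val hn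
    obtain ⟨i, v, hv, δ, hδ, e'⟩ := h.exists_rot
      (Subgroup.mem_centralizer_singleton_iff.2 (mul_inv_eq_iff_eq_mul.1 e)) n.2
    have hq : h.τ v * δ ∈ h.Q := by
      refine mul_mem (Subgroup.mem_centralizer_iff.2 fun y hy => h.E_comm hy ((h.τ_mem_E v).2 hv))
        (h.D_le_Q hδ)
    have hn' : n = (⟨h.τ cc, h.cc_mem_NE⟩ : h.NE)⁻¹ ^ (i : ℕ) * ⟨_, h.Q_le_NE hq⟩ := Subtype.ext (by
      show (n : G) = (h.τ cc)⁻¹ ^ (i : ℕ) * _
      rw [e', map_pow, inv_pow])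
    have : (⟨h.act n, n, rfl⟩ : h.act.range) = c⁻¹ ^ (i : ℕ) := Subtype.ext (by
      show h.act n = (h.act ⟨h.τ cc, h.cc_mem_NE⟩)⁻¹ ^ (i : ℕ)
      rw [hn', map_mul, map_pow, map_inv, (h.act_eq_one).2 (show ((⟨_, h.Q_le_NE hq⟩ : h.NE) : G) ∈ h.Q
        from hq), mul_one])
    rw [this]
    exact pow_mem (inv_mem (Subgroup.mem_zpowers c)) _
  have e := MulAction.index_stabilizer h.act.range y₀
  rw [horb, h.card_compl] at e
  rw [← Subgroup.card_mul_index (MulAction.stabilizer h.act.range y₀), e, hstab, Nat.card_zpowers, hc3]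

theorem stabilizer_pow {g : h.act.range} (hg : (g : MulAut h.E) ⟨h.t, h.t_mem_E⟩ = ⟨h.t, h.t_mem_E⟩) :
    g ^ 3 = 1 := by
  classical
  obtain ⟨n, hn⟩ := g.2
  rw [← hn] at hg
  have e : (n : G) * h.t * (n : G)⁻¹ = h.t := congrArg Subtype.val hg
  obtain ⟨i, v, hv, δ, hδ, e'⟩ := h.exists_rot
    (Subgroup.mem_centralizer_singleton_iff.2 (mul_inv_eq_iff_eq_mul.1 e)) n.2
  have hq : h.τ v * δ ∈ h.Q :=
    mul_mem (Subgroup.mem_centralizer_iff.2 fun y hy => h.E_comm hy ((h.τ_mem_E v).2 hv)) (h.D_le_Q hδ)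
  have hn' : n = (⟨h.τ cc, h.cc_mem_NE⟩ : h.NE)⁻¹ ^ (i : ℕ) * ⟨_, h.Q_le_NE hq⟩ := Subtype.ext (by
    show (n : G) = (h.τ cc)⁻¹ ^ (i : ℕ) * _
    rw [e', map_pow, inv_pow])
  apply Subtype.ext
  show (g : MulAut h.E) ^ 3 = 1
  rw [← hn, hn', map_mul, map_pow, (h.act_eq_one).2 (show ((⟨_, h.Q_le_NE hq⟩ : h.NE) : G) ∈ h.Q
    from hq), mul_one, ← pow_mul, mul_comm, pow_mul, ← map_pow,
    show (⟨h.τ cc, h.cc_mem_NE⟩ : h.NE)⁻¹ ^ 3 = 1 from Subtype.ext (by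
      show (h.τ cc)⁻¹ ^ 3 = 1
      rw [inv_pow, ← map_pow, gen_uu.2.2.2.2.2.2.2.2.2.1, map_one, inv_one]), map_one, one_pow]

/-- An element inducing an element of order seven and trivial on `Q / E`, the subgroup it generates
being normal modulo `Q`. -/
theorem exists_seven : ∃ d : G, ∃ hd : d ∈ h.A,
    (∀ y ∈ h.E, d * y * d⁻¹ = y → y = 1) ∧ (∀ y ∈ h.E, d ^ 7 * y * (d ^ 7)⁻¹ = y) ∧
      ∀ n ∈ h.NE, ∃ k : ℕ, ∀ y ∈ h.E, n⁻¹ * d * n * y * (n⁻¹ * d * n)⁻¹ = d ^ k * y * (d ^ k)⁻¹ := by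
  classical
  haveI : Fact (Nat.Prime 7) := ⟨by norm_num⟩
  set f := h.act.rangeRestrict with hf
  let ΓA : Subgroup h.act.range := (h.A.subgroupOf h.NE).map f
  have hΓn : ΓA.Normal := by
    haveI : (h.A.subgroupOf h.NE).Normal :=
      ⟨fun a ha n => h.A_conj n.2 ha⟩
    exact Subgroup.Normal.map inferInstance f h.act.rangeRestrict_surjective
  set c : h.act.range := f ⟨h.τ cc, h.cc_mem_NE⟩ with hc
  have hcA : c ∈ ΓA := ⟨_, h.cc_mem_A, rfl⟩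
  have hd21 : Nat.card ΓA ∣ 21 := h.card_range ▸ Subgroup.card_subgroup_dvd_card ΓA
  obtain ⟨n, hn, hnu⟩ := h.exists_NE_conj' ((h.τ_mem_E uu).2 (Or.inr (Or.inl rfl)))
    (fun e => gen_uu.2.2.2.2.1 (h.τ_inj (e.trans (map_one _).symm)))
  have h7 : 7 ∣ Nat.card ΓA := by
    by_contra h7
    have h3 : Nat.card ΓA ∣ 3 := (Nat.Coprime.dvd_of_dvd_mul_right
      ((Nat.Prime.coprime_iff_not_dvd (by norm_num)).2 h7).symm (hd21 : Nat.card ΓA ∣ 3 * 7))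
    have hz : ΓA = Subgroup.zpowers c := by
      refine (Subgroup.eq_of_le_of_card_ge (Subgroup.zpowers_le.2 hcA) ?_).symm
      rw [Nat.card_zpowers]
      haveI : Fact (Nat.Prime 3) := ⟨by norm_num⟩
      have : orderOf c = 3 := by
        refine orderOf_eq_prime ?_ fun e => ?_
        · exact h.stabilizer_pow (Subtype.ext h.cc_conj_t)
        · have hQ : h.τ cc ∈ h.Q := (h.act_eq_one).1 (congrArg Subtype.val e)
          have := Subgroup.mem_centralizer_iff.1 hQ _ ((h.τ_mem_E uu).2 (Or.inr (Or.inl rfl)))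
          rw [← map_mul, ← map_mul] at this
          exact gen_uu.2.2.2.2.1 (cc_moves uu (Or.inr (Or.inl rfl)) (h.τ_inj this).symm)
      rw [this]
      exact Nat.le_of_dvd (by norm_num) h3
    have hm := hΓn.conj_mem c hcA ((f ⟨n, hn⟩)⁻¹)
    rw [inv_inv, hz, Subgroup.mem_zpowers_iff] at hm
    obtain ⟨i, hi⟩ := hm
    have hfix : ((c ^ i : h.act.range) : MulAut h.E) ⟨h.t, h.t_mem_E⟩ = ⟨h.t, h.t_mem_E⟩ := by
      have : c ∈ MulAction.stabilizer h.act.range (⟨h.t, h.t_mem_E⟩ : h.E) :=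
        MulAction.mem_stabilizer_iff.2 (Subtype.ext h.cc_conj_t)
      exact MulAction.mem_stabilizer_iff.1 (zpow_mem this i)
    rw [hi] at hfix
    have e : (n⁻¹ * h.τ cc * n) * h.t * (n⁻¹ * h.τ cc * n)⁻¹ = h.t := by
      have : n⁻¹ * (h.τ cc * (n * h.t * n⁻¹) * (h.τ cc)⁻¹) * n⁻¹⁻¹ = h.t := congrArg Subtype.val hfix
      calc (n⁻¹ * h.τ cc * n) * h.t * (n⁻¹ * h.τ cc * n)⁻¹
          = n⁻¹ * (h.τ cc * (n * h.t * n⁻¹) * (h.τ cc)⁻¹) * n⁻¹⁻¹ := by group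
        _ = h.t := this
    have e2 : h.τ cc * h.τ uu * (h.τ cc)⁻¹ = h.τ uu := by
      rw [← hnu]
      calc h.τ cc * (n * h.t * n⁻¹) * (h.τ cc)⁻¹
          = n * ((n⁻¹ * h.τ cc * n) * h.t * (n⁻¹ * h.τ cc * n)⁻¹) * n⁻¹ := by group
        _ = n * h.t * n⁻¹ := by rw [e]
    rw [h.cc_conj_uu] at e2
    exact gen_uu.2.2.2.2.2.2.1 (h.τ_inj e2).symm
  obtain ⟨g, hg⟩ := exists_prime_orderOf_dvd_card' (G := ΓA) 7 h7
  obtain ⟨d, hd, hdg⟩ := g.2
  have hg' : orderOf (f d) = 7 := by rw [hdg, Subgroup.orderOf_coe]; exact hg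
  have hd' : (d : G) ∈ h.A := hd
  refine ⟨d, hd', fun y hy hfix => ?_, fun y hy => ?_, fun m hm => ?_⟩
  · by_contra hy1
    obtain ⟨m, hm, hmy⟩ := h.exists_NE_conj' hy hy1
    set g' := (f ⟨m, hm⟩)⁻¹ * f d * f ⟨m, hm⟩ with hg''
    have h7' : orderOf g' = 7 := by
      rw [hg'', show (f ⟨m, hm⟩)⁻¹ * f d * f ⟨m, hm⟩ = (MulAut.conj (f ⟨m, hm⟩)⁻¹).toMonoidHom (f d) by simp,
        orderOf_injective _ (MulAut.conj _).injective, hg']
    have h3 := h.stabilizer_pow (g := g') (Subtype.ext (by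
      show m⁻¹ * ((d : G) * (m * h.t * m⁻¹) * (d : G)⁻¹) * m⁻¹⁻¹ = h.t
      rw [hmy, hfix, ← hmy]; group))
    have := orderOf_dvd_of_pow_eq_one h3
    rw [h7'] at this
    norm_num at this
  · have h1 : f d ^ 7 = 1 := hg' ▸ pow_orderOf_eq_one _
    rw [← map_pow] at h1
    exact congrArg Subtype.val (DFunLike.congr_fun (congrArg Subtype.val h1) ⟨y, hy⟩)
  · set g' := (f ⟨m, hm⟩)⁻¹ * f d * f ⟨m, hm⟩ with hg''
    have h7' : orderOf g' = 7 := by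
      rw [hg'', show (f ⟨m, hm⟩)⁻¹ * f d * f ⟨m, hm⟩ = (MulAut.conj (f ⟨m, hm⟩)⁻¹).toMonoidHom (f d) by simp,
        orderOf_injective _ (MulAut.conj _).injective, hg']
    have hmem : g' ∈ Subgroup.zpowers (f d) := by
      by_contra hnot
      let F : Subgroup.zpowers (f d) × Subgroup.zpowers g' → h.act.range :=
        fun p => (p.1 : h.act.range) * p.2
      have hF : Function.Injective F := by
        rintro ⟨⟨a, ha⟩, ⟨b, hb⟩⟩ ⟨⟨a', ha'⟩, ⟨b', hb'⟩⟩ e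
        have e' : a * b = a' * b' := e
        have h1 : a'⁻¹ * a = b' * b⁻¹ := by
          calc a'⁻¹ * a = a'⁻¹ * (a * b) * b⁻¹ := by group
            _ = b' * b⁻¹ := by rw [e']; group
        have h2 : b' * b⁻¹ = 1 := by
          by_contra h2
          refine hnot ?_
          have hd7 : orderOf (b' * b⁻¹) ∣ 7 := h7' ▸ orderOf_dvd_of_mem_zpowers (mul_mem hb' (inv_mem hb))
          have ho : orderOf (b' * b⁻¹) = 7 := ((Nat.dvd_prime (by norm_num)).1 hd7).resolve_left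
            (fun e => h2 (orderOf_eq_one_iff.1 e))
          have hle : Subgroup.zpowers (b' * b⁻¹) = Subgroup.zpowers g' :=
            Subgroup.eq_of_le_of_card_ge (Subgroup.zpowers_le.2 (mul_mem hb' (inv_mem hb)))
              (by rw [Nat.card_zpowers, Nat.card_zpowers, ho, h7'])
          exact (Subgroup.zpowers_le.2 (h1 ▸ mul_mem (inv_mem ha') ha)) (hle.symm ▸ Subgroup.mem_zpowers g')
        have hb2 : b = b' := (mul_inv_eq_one.1 h2).symm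
        subst hb2
        obtain rfl : a = a' := mul_right_cancel e'
        rfl
      have := Nat.card_le_card_of_injective F hF
      rw [Nat.card_prod, Nat.card_zpowers, Nat.card_zpowers, hg', h7', h.card_range] at this
      omega
    obtain ⟨k, hk⟩ := (mem_powers_iff_mem_zpowers.2 hmem : g' ∈ Submonoid.powers (f d))
    refine ⟨k, fun y hy => ?_⟩
    have e1 : f ((⟨m, hm⟩ : h.NE)⁻¹ * d * ⟨m, hm⟩) = f (d ^ k) := by
      rw [map_mul, map_mul, map_inv, map_pow]; exact hk.symm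
    exact congrArg Subtype.val (DFunLike.congr_fun (congrArg Subtype.val e1) ⟨y, hy⟩)

/-- The complement of the weak closure in the centraliser. -/
theorem exists_split : ∃ (d : G) (Z : Subgroup G), d ∈ h.NE ∧
    (∀ y ∈ h.E, d * y * d⁻¹ = y → y = 1) ∧ (∀ y ∈ h.E, d ^ 7 * y * (d ^ 7)⁻¹ = y) ∧
    Z ≤ h.D ∧ (∀ z ∈ Z, d * z = z * d) ∧ (∀ k, h.φ k ∈ Z → k = 1) ∧
    (∀ c ∈ h.C, ∃ k, ∃ z ∈ Z, c = h.φ k * z) ∧ ∀ n ∈ h.NE, ∀ z ∈ Z, n * z * n⁻¹ ∈ Z := by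
  obtain ⟨d, hd, hfree, h7, hnorm⟩ := h.exists_seven
  let Z : Subgroup G := h.Q ⊓ Subgroup.centralizer {d}
  have hZd : ∀ z ∈ Z, d * z = z * d := fun z hz =>
    (Subgroup.mem_centralizer_singleton_iff.1 hz.2).symm
  have hZn : ∀ n ∈ h.NE, ∀ z ∈ Z, n * z * n⁻¹ ∈ Z := by
    intro n hn z hz
    obtain ⟨k, hk⟩ := hnorm n hn
    set a := (d ^ k)⁻¹ * (n⁻¹ * d * n) with ha
    have haA : a ∈ h.A := mul_mem (inv_mem (pow_mem hd k)) (by
      simpa using h.A_conj (inv_mem hn) hd)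
    have haQ : a ∈ h.Q := Subgroup.mem_centralizer_iff.2 fun y hy => by
      have : a * y * a⁻¹ = y := by
        calc a * y * a⁻¹ = (d ^ k)⁻¹ * (n⁻¹ * d * n * y * (n⁻¹ * d * n)⁻¹) * d ^ k := by rw [ha]; group
          _ = y := by rw [hk y hy]; group
      exact (mul_inv_eq_iff_eq_mul.1 this).symm
    have e1 := h.rigid haA haQ hz.1
    have e2 : Commute (d ^ k) z := (show Commute d z from hZd z hz).pow_left k
    have e3 : Commute (n⁻¹ * d * n) z := by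
      rw [show n⁻¹ * d * n = d ^ k * a by rw [ha]; group]
      exact e2.mul_left e1
    refine ⟨h.NE_conj_mem_Q hn hz.1, Subgroup.mem_centralizer_singleton_iff.2 ?_⟩
    calc n * z * n⁻¹ * d = n * (z * (n⁻¹ * d * n)) * n⁻¹ := by group
      _ = d * (n * z * n⁻¹) := by rw [← e3.eq]; group
  have hZE : ∀ y ∈ h.E, y ∈ Z → y = 1 := fun y hy hz =>
    hfree y hy (by rw [hZd y hz, mul_inv_cancel_right])
  have hZD : Z ≤ h.D := by
    intro z hz
    obtain ⟨v, hv, δ, hδ, e⟩ := h.Q_decomp hz.1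
    have h1 := hZE _ (h.cc_mem_A.2 z hz.1) (mul_mem (hZn _ h.cc_mem_NE z hz) (inv_mem hz))
    have e2 : h.τ cc * δ = δ * h.τ cc := h.D_comm hδ _
    have h2 : h.τ cc * z = z * h.τ cc := mul_inv_eq_iff_eq_mul.1 (mul_inv_eq_one.1 h1)
    have h3 : h.τ (cc * v) = h.τ (v * cc) := by
      rw [map_mul, map_mul]
      rw [e, ← mul_assoc, mul_assoc (h.τ v), ← e2, ← mul_assoc] at h2
      exact mul_right_cancel h2
    rw [e, cc_moves v hv (h.τ_inj h3), map_one, one_mul]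
    exact hδ
  refine ⟨d, Z, h.A_le hd, hfree, h7, hZD, hZd, fun k hk => ?_, fun c hc => ?_, hZn⟩
  · have h2 := h.mem_D_inf_W (hZD hk)
    have hkE : h.φ k ∈ h.E := (h.mem_E k).2 ((inE_iff k).2 (by rw [h2]; exact inV_one))
    exact h.inj ((hZE _ hkE hk).trans (map_one _).symm)
  · obtain ⟨a, δ, hδ, rfl⟩ := h.C_decomp hc
    let F : h.E → h.E := fun y => ⟨(d * y * d⁻¹) * (y : G)⁻¹,
      mul_mem (h.NE_conj_mem_E (h.A_le hd) y.2) (inv_mem y.2)⟩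
    have hF : Function.Injective F := by
      rintro ⟨y, hy⟩ ⟨y', hy'⟩ e
      have e' : d * y * d⁻¹ * y⁻¹ = d * y' * d⁻¹ * y'⁻¹ := congrArg Subtype.val e
      have := hfree (y'⁻¹ * y) (mul_mem (inv_mem hy') hy) (by
        have hcm := h.E_comm (inv_mem hy') (h.NE_conj_mem_E (h.A_le hd) hy)
        calc d * (y'⁻¹ * y) * d⁻¹ = (d * y' * d⁻¹)⁻¹ * ((d * y * d⁻¹ * y⁻¹) * y) := by group
          _ = y'⁻¹ * y := by rw [e']; group)
      exact Subtype.ext (inv_mul_eq_one.1 this).symm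
    have hδQ := h.D_le_Q hδ
    obtain ⟨⟨y, hy⟩, hye⟩ := Finite.surjective_of_injective hF
      ⟨(d * δ * d⁻¹ * δ⁻¹)⁻¹, inv_mem (hd.2 δ hδQ)⟩
    have hye' : d * y * d⁻¹ * y⁻¹ = (d * δ * d⁻¹ * δ⁻¹)⁻¹ := congrArg Subtype.val hye
    have hyδ : y * δ = δ * y := Subgroup.mem_centralizer_iff.1 hδQ y hy
    have hz : δ * y ∈ Z := by
      refine ⟨mul_mem hδQ (Subgroup.mem_centralizer_iff.2 fun w hw => h.E_comm hw hy),
        Subgroup.mem_centralizer_singleton_iff.2 ?_⟩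
      have hc1 := Subgroup.mem_centralizer_iff.1 hδQ _ (hd.2 δ hδQ)
      have hc2 := h.E_comm (hd.2 δ hδQ) (h.NE_conj_mem_E (h.A_le hd) hy)
      have e : d * (δ * y) * d⁻¹ = δ * y := by
        calc d * (δ * y) * d⁻¹ = (d * δ * d⁻¹ * δ⁻¹) * δ * (d * y * d⁻¹ * y⁻¹) * y := by group
          _ = δ * y := by rw [hye', hc1]; group
      exact (mul_inv_eq_iff_eq_mul.1 e).symm
    obtain ⟨j, -, hj⟩ := inv_mem hy
    refine ⟨(1, a) * j, δ * y, hz, ?_⟩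
    rw [map_mul, hj, mul_assoc, ← hyδ, inv_mul_cancel_left]
    rfl

end CfsgLib.WeakClosureJ1.Setting
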