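import Cfsg.Agent.Lib.JankoOne.Facts
import Cfsg.Agent.Lib.JankoOne.Involution
import Cfsg.Agent.S0205

/-!
No subgroup of odd order of the first Janko group is transitive on the involutions.
-/

set_option autoImplicit false
set_option linter.style.haveILetI false

namespace CfsgLib.WeakClosureJ1

open CfsgLib.SporadicB.J1Cert
open scoped Pointwise

theorem primes_of_dvd {r : ℕ} (hr : r.Prime) (hd : r ∣ 175560) (ho : r ≠ 2) :
    r = 3 ∨ r = 5 ∨ r = 7 ∨ r = 11 ∨ r = 19 := by
  rw [show (175560 : ℕ) = 2 ^ 3 * 3 * 5 * 7 * 11 * 19 by norm_num] at hd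
  have e : ∀ {p : ℕ}, p.Prime → r ∣ p → r = p := fun hp h => (Nat.prime_dvd_prime_iff_eq hr hp).1 h
  rcases hr.dvd_mul.1 hd with hd | hd
  rcases hr.dvd_mul.1 hd with hd | hd
  rcases hr.dvd_mul.1 hd with hd | hd
  rcases hr.dvd_mul.1 hd with hd | hd
  rcases hr.dvd_mul.1 hd with hd | hd
  · exact absurd (e Nat.prime_two (hr.dvd_of_dvd_pow hd)) ho
  · exact Or.inl (e (by norm_num) hd)
  · exact Or.inr (Or.inl (e (by norm_num) hd))
  · exact Or.inr (Or.inr (Or.inl (e (by norm_num) hd)))
  · exact Or.inr (Or.inr (Or.inr (Or.inl (e (by norm_num) hd))))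
  · exact Or.inr (Or.inr (Or.inr (Or.inr (e (by norm_num) hd))))

theorem not_sq_dvd {r : ℕ} (hr : r.Prime) (ho : r ≠ 2) : ¬ r * r ∣ 175560 := fun h => by
  rcases primes_of_dvd hr (dvd_of_mul_left_dvd h) ho with rfl | rfl | rfl | rfl | rfl <;>
    norm_num at h

/-- An element of order eleven generates its own centraliser. -/
theorem mem_zpowers_of_eleven {y g : J} (hy : orderOf y = 11) (hg : g * y = y * g) :
    g ∈ Subgroup.zpowers y := by
  haveI : Fact (Nat.Prime 11) := ⟨by norm_num⟩
  have ha : orderOf CfsgLib.JankoOne.a = 11 :=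
    orderOf_eq_prime CfsgLib.JankoOne.rel_facts.1 CfsgLib.JankoOne.a_ne_one
  have hfac : (Nat.card J).factorization 11 = 1 := by
    rw [card_J]
    have h1 := (Nat.Prime.pow_dvd_iff_le_factorization (p := 11) (by norm_num) (n := 175560)
      (by norm_num) (k := 1)).1 (by norm_num)
    have h2 := (Nat.Prime.pow_dvd_iff_le_factorization (p := 11) (by norm_num) (n := 175560)
      (by norm_num) (k := 2)).not.1 (by norm_num)
    omega
  let A : Sylow 11 J := Sylow.ofCard (Subgroup.zpowers CfsgLib.JankoOne.a)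
    (by rw [Nat.card_zpowers, ha, hfac, pow_one])
  let Y : Sylow 11 J := Sylow.ofCard (Subgroup.zpowers y) (by rw [Nat.card_zpowers, hy, hfac, pow_one])
  obtain ⟨c, hc⟩ := MulAction.exists_smul_eq J A Y
  have hcA : (Y : Subgroup J) = MulAut.conj c • (A : Subgroup J) := by
    rw [← hc, Sylow.coe_subgroup_smul]
  have hyA : c⁻¹ * y * c ∈ Subgroup.zpowers CfsgLib.JankoOne.a := by
    have : y ∈ (Y : Subgroup J) := by rw [Sylow.coe_ofCard]; exact Subgroup.mem_zpowers y
    rw [hcA, Subgroup.mem_pointwise_smul_iff_inv_smul_mem, Sylow.coe_ofCard] at this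
    simpa [MulAut.smul_def] using this
  have hgen : Subgroup.zpowers (c⁻¹ * y * c) = Subgroup.zpowers CfsgLib.JankoOne.a :=
    Subgroup.eq_of_le_of_card_ge (Subgroup.zpowers_le.2 hyA) (by
      rw [Nat.card_zpowers, Nat.card_zpowers, ha,
        show orderOf (c⁻¹ * y * c) = orderOf y by
          rw [show c⁻¹ * y * c = (MulAut.conj c⁻¹).toMonoidHom y by simp]
          exact orderOf_injective _ (MulAut.conj c⁻¹).injective y, hy])
  have hcom : Commute (c⁻¹ * g * c) CfsgLib.JankoOne.a := by
    have hb : Commute (c⁻¹ * g * c) (c⁻¹ * y * c) := by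
      have := (show Commute g y from hg).map (MulAut.conj c⁻¹).toMonoidHom
      simpa using this
    obtain ⟨i, hi⟩ := Subgroup.mem_zpowers_iff.1
      (hgen.symm ▸ Subgroup.mem_zpowers CfsgLib.JankoOne.a :
        CfsgLib.JankoOne.a ∈ Subgroup.zpowers (c⁻¹ * y * c))
    exact hi ▸ hb.zpow_right i
  have hmem := CfsgLib.JankoOne.mem_zpowers_of_comm_a hcom.eq
  rw [← hgen, Subgroup.mem_zpowers_iff] at hmem
  obtain ⟨i, hi⟩ := hmem
  refine Subgroup.mem_zpowers_iff.2 ⟨i, ?_⟩
  have e : (MulAut.conj c) ((c⁻¹ * y * c) ^ i) = (MulAut.conj c) (c⁻¹ * g * c) := by rw [hi]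
  rw [map_zpow] at e
  simpa [mul_assoc] using e

/-- An element of prime order normalising a subgroup of prime order `r` with `q ∤ r - 1` centralises it. -/
theorem comm_of_normal_prime {H : Type*} [Group H] [Finite H] {R : Subgroup H} [R.Normal] {r q : ℕ}
    (hr : r.Prime) (hR : Nat.card R = r) {y a : H} (hy : orderOf y = q) (hq : q.Prime)
    (hnd : ¬ q ∣ r - 1) (ha : a ∈ R) : y * a = a * y := by
  haveI : Fact r.Prime := ⟨hr⟩
  haveI : IsCyclic R := isCyclic_of_prime_card hR
  set f : MulAut R := MulAut.conjNormal y with hf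
  have h1 : orderOf f ∣ q := hy ▸ orderOf_map_dvd _ y
  have h2 : orderOf f ∣ r - 1 := by
    have := orderOf_dvd_natCard f
    rwa [IsCyclic.card_mulAut, hR, Nat.totient_prime hr] at this
  rcases (Nat.dvd_prime hq).1 h1 with e | e
  · have h3 : f ⟨a, ha⟩ = ⟨a, ha⟩ := by rw [orderOf_eq_one_iff.1 e]; rfl
    exact mul_inv_eq_iff_eq_mul.1 (congrArg Subtype.val h3)
  · exact absurd (e ▸ h2) hnd

/-- A solvable group with a nontrivial element has a nontrivial normal abelian subgroup. -/
theorem exists_normal_abelian {H : Type*} [Group H] [Group.IsSolvable H] [Nontrivial H] :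
    ∃ A : Subgroup H, A.Normal ∧ A ≠ ⊥ ∧ ∀ a ∈ A, ∀ b ∈ A, a * b = b * a := by
  obtain ⟨n, hn⟩ := (inferInstance : Group.IsSolvable H).solvable
  classical
  have hex : ∃ n, derivedSeries H n = ⊥ := ⟨n, hn⟩
  obtain ⟨k, hk⟩ : ∃ k, Nat.find hex = k + 1 := by
    refine ⟨Nat.find hex - 1, ?_⟩
    have : Nat.find hex ≠ 0 := fun e => by
      have := Nat.find_spec hex
      rw [e, derivedSeries_zero] at this
      exact top_ne_bot this
    omega
  refine ⟨derivedSeries H k, derivedSeries_normal H k, Nat.find_min hex (by omega), fun a ha b hb => ?_⟩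
  have h := Nat.find_spec hex
  rw [hk, derivedSeries_succ, Subgroup.commutator_eq_bot_iff_le_centralizer] at h
  exact ((h ha) b hb).symm

/-- No subgroup of odd order is transitive on the involutions. -/
theorem no_odd_transitive (P : Subgroup J) (hodd : Odd (Nat.card P))
    (htr : ∀ u v : J, orderOf u = 2 → orderOf v = 2 → ∃ p ∈ P, p * u * p⁻¹ = v) : False := by
  classical
  obtain ⟨t, ht, ⟨e⟩⟩ := CfsgLib.JankoOne.exists_involution_centralizer
  have hC : Nat.card (Subgroup.centralizer ({t} : Set J)) = 120 := by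
    rw [Nat.card_congr e.toEquiv, Nat.card_prod, Nat.card_eq_fintype_card, Nat.card_eq_fintype_card]
    decide +kernel
  have h1463 : 1463 ∣ Nat.card P := by
    let act : MulAction (ConjAct J) J := inferInstance
    have h := MulAction.index_stabilizer (ConjAct J) t
    have h' := MulAction.index_stabilizer (P.map (ConjAct.toConjAct : J ≃* ConjAct J).toMonoidHom) t
    have hidx : (MulAction.stabilizer (ConjAct J) t).index = 1463 := by
      have e1 : Nat.card (MulAction.stabilizer (ConjAct J) t) = 120 := by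
        rw [← hC]
        refine Nat.card_congr (Equiv.subtypeEquiv ConjAct.ofConjAct.toEquiv fun x => ?_)
        rw [MulAction.mem_stabilizer_iff, ConjAct.smul_def, mul_inv_eq_iff_eq_mul]
        exact Subgroup.mem_centralizer_singleton_iff.symm
      have e2 := (MulAction.stabilizer (ConjAct J) t).card_mul_index
      rw [e1, show Nat.card (ConjAct J) = Nat.card J from
        Nat.card_congr ConjAct.ofConjAct.toEquiv, card_J] at e2
      omega
    have horb : MulAction.orbit (P.map (ConjAct.toConjAct : J ≃* ConjAct J).toMonoidHom) t =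
        MulAction.orbit (ConjAct J) t := by
      refine Set.Subset.antisymm ?_ ?_
      · rintro _ ⟨x, rfl⟩
        exact ⟨(x : ConjAct J), rfl⟩
      · rintro _ ⟨x, rfl⟩
        obtain ⟨p, hp, hpe⟩ := htr t (x • t) ht (by
          rw [ConjAct.smul_def, ← MulAut.conj_apply]
          exact (orderOf_injective (MulAut.conj _).toMonoidHom (MulAut.conj _).injective t).trans ht)
        exact ⟨⟨ConjAct.toConjAct p, p, hp, rfl⟩, hpe⟩
    rw [horb, ← h, hidx] at h'
    have h'' := Subgroup.index_dvd_card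
      (MulAction.stabilizer (P.map (ConjAct.toConjAct : J ≃* ConjAct J).toMonoidHom) t)
    rw [h'] at h''
    rwa [Subgroup.card_map_of_injective
      (ConjAct.toConjAct : J ≃* ConjAct J).injective] at h''
  haveI := Cfsg.Agent.S0205.result hodd
  haveI : Nontrivial P := Finite.one_lt_card_iff_nontrivial.1 (by
    have := Nat.le_of_dvd Nat.card_pos h1463; omega)
  obtain ⟨A, hAn, hA1, hAc⟩ := exists_normal_abelian (H := P)
  obtain ⟨r, hr, hrA⟩ := Nat.exists_prime_and_dvd (n := Nat.card A) (fun h =>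
    hA1 ((Subgroup.card_eq_one).1 h))
  haveI : Fact r.Prime := ⟨hr⟩
  have hPJ : Nat.card P ∣ 175560 := card_J ▸ Subgroup.card_subgroup_dvd_card P
  have hr2 : r ≠ 2 := by
    rintro rfl
    exact (Nat.not_even_iff_odd.2 hodd) (even_iff_two_dvd.2 (hrA.trans (Subgroup.card_subgroup_dvd_card A)))
  obtain ⟨a, ha⟩ := exists_prime_orderOf_dvd_card' (G := A) r hrA
  let R : Subgroup P :=
    { carrier := {x | x ∈ A ∧ x ^ r = 1}
      one_mem' := ⟨one_mem _, one_pow _⟩
      mul_mem' := fun {x y} hx hy => ⟨mul_mem hx.1 hy.1, by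
        rw [(show Commute x y from hAc x hx.1 y hy.1).mul_pow, hx.2, hy.2, one_mul]⟩
      inv_mem' := fun {x} hx => ⟨inv_mem hx.1, by rw [inv_pow, hx.2, inv_one]⟩ }
  haveI : R.Normal := ⟨fun x hx g => ⟨hAn.conj_mem x hx.1 g, by rw [conj_pow, hx.2]; group⟩⟩
  have hRp : IsPGroup r R := fun x => ⟨1, Subtype.ext (by simpa using x.2.2)⟩
  have haR : (a : P) ∈ R := ⟨a.2, by rw [← SubmonoidClass.coe_pow, ← ha, pow_orderOf_eq_one]; rfl⟩
  have hR : Nat.card R = r := by
    obtain ⟨k, hk⟩ := IsPGroup.iff_card.1 hRp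
    have h1 : r ∣ Nat.card R := by
      rw [← ha, ← Subgroup.orderOf_coe a, ← Subgroup.orderOf_mk (a : P) haR]
      exact orderOf_dvd_natCard _
    rcases k with _ | _ | k
    · rw [hk, pow_zero] at h1
      exact absurd (Nat.dvd_one.1 h1) hr.ne_one
    · rw [hk, pow_one]
    · exfalso
      refine not_sq_dvd hr hr2 (dvd_trans ?_ ((Subgroup.card_subgroup_dvd_card R).trans hPJ))
      rw [hk, pow_succ, pow_succ, mul_assoc]
      exact dvd_mul_left _ _
  have hrP : r ∣ Nat.card P := hR ▸ Subgroup.card_subgroup_dvd_card R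
  have haP : orderOf ((a : P) : J) = r := by rw [Subgroup.orderOf_coe, Subgroup.orderOf_coe, ha]
  have hbad : ∀ x y : J, orderOf x = 11 → x * y = y * x → (orderOf y).Prime → orderOf y = 11 := by
    intro x y hx hxy hy
    have hd := orderOf_dvd_of_mem_zpowers (mem_zpowers_of_eleven hx hxy.symm)
    rw [hx] at hd
    exact (Nat.prime_dvd_prime_iff_eq hy (by norm_num)).1 hd
  by_cases h11 : r = 11
  · haveI : Fact (Nat.Prime 19) := ⟨by norm_num⟩
    obtain ⟨y, hy⟩ := exists_prime_orderOf_dvd_card' (G := P) 19 (dvd_trans (by norm_num) h1463)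
    have hc := comm_of_normal_prime hr hR hy (by norm_num) (by subst h11; norm_num) haR
    have := hbad (a : P) y (by rw [haP, h11]) (congrArg Subtype.val hc).symm (by
      rw [Subgroup.orderOf_coe, hy]; norm_num)
    rw [Subgroup.orderOf_coe, hy] at this
    omega
  · haveI : Fact (Nat.Prime 11) := ⟨by norm_num⟩
    obtain ⟨y, hy⟩ := exists_prime_orderOf_dvd_card' (G := P) 11 (dvd_trans (by norm_num) h1463)
    have hc := comm_of_normal_prime hr hR hy (by norm_num) (by
      rcases primes_of_dvd hr (hrP.trans hPJ) hr2 with rfl | rfl | rfl | rfl | rfl <;> omega) haR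
    have := hbad y (a : P) (by rw [Subgroup.orderOf_coe, hy]) (congrArg Subtype.val hc) (by
      rw [haP]; exact hr)
    rw [haP] at this
    exact h11 this

end CfsgLib.WeakClosureJ1
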