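import Cfsg.Agent.Lib.WeakClosureJ1.Small

/-!
A two-central involution whose weak closure in its centraliser is `2 × A₅`: fusion in the Sylow
subgroup and the centraliser of the involution.
-/

set_option autoImplicit false
set_option maxRecDepth 100000
set_option synthInstance.maxSize 4000
set_option synthInstance.maxHeartbeats 400000
set_option linter.style.haveILetI false
set_option linter.unusedSectionVars false

open scoped Pointwise

namespace CfsgLib.WeakClosureJ1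

open CfsgLib.J1Order

theorem fst_sq : ∀ m : Multiplicative (ZMod 2), m * m = 1 := by decide

theorem fst_cases : ∀ m : Multiplicative (ZMod 2), m = 1 ∨ m = Multiplicative.ofAdd 1 := by decide

theorem zK_pair : zK = ((Multiplicative.ofAdd 1 : Multiplicative (ZMod 2)), (1 : A5)) := rfl

theorem zK_central (k : K5) : k * zK = zK * k := Prod.ext (mul_comm _ _) (by simp [zK])

theorem split_pair (k : K5) : k = (1, k.2) ∨ k = zK * (1, k.2) := by
  rcases fst_cases k.1 with e | e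
  · exact Or.inl (Prod.ext e rfl)
  · exact Or.inr (Prod.ext (e.trans (by simp [zK])) (by simp [zK]))

theorem inE_iff (k : K5) : inE k ↔ inV k.2 := (inV_iff k.2).symm

theorem inV_one : inV 1 := Or.inl rfl

theorem subE_le {H : Subgroup K5} (hz : zK ∈ H) (hu : ((1 : Multiplicative (ZMod 2)), uu) ∈ H)
    (h1 : ((1 : Multiplicative (ZMod 2)), u1) ∈ H) : ∀ k, inE k → k ∈ H := by
  intro k hk
  have h2 : ((1 : Multiplicative (ZMod 2)), k.2) ∈ H := by
    rcases (inE_iff k).1 hk with e | e | e | e <;> rw [e]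
    · exact one_mem H
    · exact hu
    · exact h1
    · rw [gen_uu.1]
      have := mul_mem hu h1
      rwa [Prod.mk_mul_mk, one_mul] at this
  rcases split_pair k with e | e <;> rw [e]
  exacts [h2, mul_mem hz h2]

theorem isPGroup_le_card_eight {K : Subgroup K5} (hK : IsPGroup 2 K) (hle : subE ≤ K) : K = subE := by
  haveI : Fact (Nat.Prime 2) := ⟨Nat.prime_two⟩
  obtain ⟨n, hn⟩ := IsPGroup.iff_card.1 hK
  have hd : 2 ^ n ∣ 120 := card_K5 ▸ hn ▸ Subgroup.card_subgroup_dvd_card K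
  refine (Subgroup.eq_of_le_of_card_ge hle ?_).symm
  rw [card_subE, hn]
  by_contra h
  push Not at h
  have : 4 ≤ n := by
    by_contra h4
    interval_cases n <;> norm_num at h
  have := (pow_dvd_pow 2 this).trans hd
  norm_num at this

/-- The hypotheses. -/
structure Setting (G : Type*) [Group G] where
  φ : K5 →* G
  inj : Function.Injective φ
  S : Sylow 2 G
  hS : ∀ s ∈ S, s * φ zK = φ zK * s
  hE : ∀ k, inE k → φ k ∈ S
  hW : Subgroup.closure {x : G | ∃ g : G, x = g * φ zK * g⁻¹ ∧ x * φ zK = φ zK * x} = φ.range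

namespace Setting

variable {G : Type*} [Group G] [Finite G] (h : Setting G)

/-- The involution. -/
def t : G := h.φ zK

/-- The component. -/
def τ : A5 →* G := h.φ.comp (MonoidHom.inr (Multiplicative (ZMod 2)) A5)

/-- The centraliser. -/
abbrev C : Subgroup G := Subgroup.centralizer ({h.t} : Set G)

/-- The elementary group of order eight. -/
def E : Subgroup G := subE.map h.φ

/-- The centraliser of the weak closure. -/
abbrev D : Subgroup G := Subgroup.centralizer (h.φ.range : Set G)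

/-- The normaliser of the elementary group. -/
abbrev NE : Subgroup G := Subgroup.normalizer (h.E : Set G)

theorem τ_apply (a : A5) : h.τ a = h.φ (1, a) := rfl

theorem τ_inj : Function.Injective h.τ := fun a b e => congrArg Prod.snd (h.inj e)

theorem φ_pair (k : K5) : h.φ k = h.τ k.2 ∨ h.φ k = h.t * h.τ k.2 := by
  rcases split_pair k with e | e
  · exact Or.inl (congrArg h.φ e)
  · exact Or.inr ((congrArg h.φ e).trans (map_mul _ _ _))

theorem t_ord : orderOf h.t = 2 := by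
  rw [t, orderOf_injective h.φ h.inj]
  exact orderOf_eq_prime (p := 2) (by decide +kernel) (by decide +kernel)

theorem t_sq : h.t * h.t = 1 := by
  rw [← pow_two, ← h.t_ord, pow_orderOf_eq_one]

theorem t_ne_one : h.t ≠ 1 := fun e => by simpa [e] using h.t_ord

theorem φ_mem_C (k : K5) : h.φ k ∈ h.C :=
  Subgroup.mem_centralizer_singleton_iff.2 (by rw [t, ← map_mul, ← map_mul, zK_central])

theorem τ_mem_C (a : A5) : h.τ a ∈ h.C := h.φ_mem_C _

theorem S_le_C : (h.S : Subgroup G) ≤ h.C := fun s hs =>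
  Subgroup.mem_centralizer_singleton_iff.2 (h.hS s hs)

theorem mem_E (k : K5) : h.φ k ∈ h.E ↔ inE k :=
  ⟨fun ⟨_, hk', e⟩ => h.inj e ▸ hk', fun hk => ⟨k, hk, rfl⟩⟩

theorem τ_mem_E (a : A5) : h.τ a ∈ h.E ↔ inV a := (h.mem_E _).trans (inE_iff _)

theorem t_mem_E : h.t ∈ h.E := (h.mem_E zK).2 ((inE_iff _).2 inV_one)

theorem E_le_S : h.E ≤ (h.S : Subgroup G) := by
  rintro _ ⟨k, hk, rfl⟩
  exact h.hE k hk

theorem E_le_C : h.E ≤ h.C := h.E_le_S.trans h.S_le_C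

theorem E_comm {a b : G} (ha : a ∈ h.E) (hb : b ∈ h.E) : a * b = b * a := by
  obtain ⟨x, hx, rfl⟩ := ha
  obtain ⟨y, hy, rfl⟩ := hb
  rw [← map_mul, ← map_mul]
  refine congrArg h.φ (Prod.ext (mul_comm _ _) ?_)
  exact (inV_mul _ _ ((inE_iff x).1 hx) ((inE_iff y).1 hy)).2

theorem conj_mem_W {g : G} (hg : (g * h.t * g⁻¹) * h.t = h.t * (g * h.t * g⁻¹)) :
    g * h.t * g⁻¹ ∈ h.φ.range := by
  rw [← h.hW]
  exact Subgroup.subset_closure ⟨g, rfl, hg⟩

theorem C_normalizes {c w : G} (hc : c ∈ h.C) (hw : w ∈ h.φ.range) : c * w * c⁻¹ ∈ h.φ.range := by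
  rw [← h.hW] at hw ⊢
  induction hw using Subgroup.closure_induction with
  | mem x hx =>
    obtain ⟨g, rfl, hx⟩ := hx
    refine Subgroup.subset_closure ⟨c * g, by group, ?_⟩
    have hct : Commute c h.t := Subgroup.mem_centralizer_singleton_iff.1 hc
    exact ((hct.mul_left (show Commute (g * h.φ zK * g⁻¹) h.t from hx)).mul_left hct.inv_left).eq
  | one => simp
  | mul a b _ _ ha hb => exact (show c * (a * b) * c⁻¹ = (c * a * c⁻¹) * (c * b * c⁻¹) by group) ▸ mul_mem ha hb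
  | inv a _ ha => exact (show c * a⁻¹ * c⁻¹ = (c * a * c⁻¹)⁻¹ by group) ▸ inv_mem ha

theorem φ_mem_E_of_pGroup {P : Subgroup G} (hP : IsPGroup 2 P) (hEP : h.E ≤ P) {k : K5}
    (hk : h.φ k ∈ P) : inE k := by
  have e : P.comap h.φ = subE :=
    isPGroup_le_card_eight (hP.comap_of_injective h.φ h.inj) fun k hk => hEP ((h.mem_E k).2 hk)
  show k ∈ subE
  rw [← e]
  exact hk

theorem mem_E_of_W_of_S {x : G} (hx : x ∈ h.φ.range) (hS : x ∈ h.S) : x ∈ h.E := by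
  obtain ⟨k, rfl⟩ := hx
  exact (h.mem_E k).2 (h.φ_mem_E_of_pGroup h.S.2 h.E_le_S hS)

theorem conj_mem_E {g : G} (hg : g * h.t * g⁻¹ ∈ h.S) : g * h.t * g⁻¹ ∈ h.E :=
  h.mem_E_of_W_of_S (h.conj_mem_W (h.hS _ hg)) hg

/-- Some non-central involution of the weak closure is a conjugate of the involution. -/
theorem exists_conj_uu : IsConj h.t (h.τ uu) ∨ IsConj h.t (h.t * h.τ uu) := by
  by_contra hno
  have hle : h.φ.range ≤ (Subgroup.zpowers h.t) := by
    rw [← h.hW, Subgroup.closure_le]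
    rintro _ ⟨g, rfl, hg⟩
    obtain ⟨k, hk⟩ := h.conj_mem_W hg
    have hk2 : k.2 * k.2 = 1 := by
      refine congrArg Prod.snd (h.inj (show h.φ (k * k) = h.φ 1 from ?_))
      rw [map_mul, hk, map_one, show g * h.t * g⁻¹ * (g * h.t * g⁻¹) = g * (h.t * h.t) * g⁻¹ by group,
        h.t_sq, mul_one, mul_inv_cancel]
    by_cases h1 : k.2 = 1
    · have hk' : g * h.t * g⁻¹ = h.φ k := hk.symm
      rw [SetLike.mem_coe, show g * h.φ zK * g⁻¹ = h.φ k from hk']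
      rcases h.φ_pair k with e | e <;> rw [e, h1, map_one]
      · exact one_mem _
      · rw [mul_one]; exact Subgroup.mem_zpowers _
    · exfalso
      obtain ⟨b, hb⟩ := invol_conj _ hk2 h1
      have hc : IsConj h.t (h.φ k) := isConj_iff.2 ⟨g, hk.symm⟩
      have hb' : h.τ b * h.φ k * (h.τ b)⁻¹ = h.τ uu ∨ h.τ b * h.φ k * (h.τ b)⁻¹ = h.t * h.τ uu := by
        rcases h.φ_pair k with e | e <;> rw [e, ← hb, map_mul, map_mul, map_inv]
        · exact Or.inl rfl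
        · refine Or.inr ?_
          have := Subgroup.mem_centralizer_singleton_iff.1 (h.τ_mem_C b)
          rw [← mul_assoc, this]
          group
      rcases hb' with e | e
      · exact hno (Or.inl (hc.trans (isConj_iff.2 ⟨_, e⟩)))
      · exact hno (Or.inr (hc.trans (isConj_iff.2 ⟨_, e⟩)))
  obtain ⟨i, hi⟩ := Subgroup.mem_zpowers_iff.1 (hle ⟨((1 : Multiplicative (ZMod 2)), uu), rfl⟩)
  have e1 : h.φ (zK ^ i) = h.φ (1, uu) := by rw [map_zpow]; exact hi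
  have e2 := congrArg Prod.snd (h.inj e1)
  rw [Prod.pow_snd] at e2
  simp [zK] at e2
  exact gen_uu.2.2.2.2.1 e2.symm

theorem cc_conj_t : h.τ cc * h.t * (h.τ cc)⁻¹ = h.t := by
  rw [Subgroup.mem_centralizer_singleton_iff.1 (h.τ_mem_C cc), mul_inv_cancel_right]

theorem cc_conj_uu : h.τ cc * h.τ uu * (h.τ cc)⁻¹ = h.τ u1 := by
  rw [← map_inv, ← map_mul, ← map_mul, gen_uu.2.2.2.2.2.2.2.1]

theorem cc_conj_u1 : h.τ cc * h.τ u1 * (h.τ cc)⁻¹ = h.τ u2 := by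
  rw [← map_inv, ← map_mul, ← map_mul, gen_uu.2.2.2.2.2.2.2.2.1]

theorem le_of_gen {H : Subgroup G} (ht : h.t ∈ H) (hu : h.τ uu ∈ H) (h1 : h.τ u1 ∈ H) : h.E ≤ H := by
  rintro _ ⟨k, hk, rfl⟩
  exact subE_le (H := H.comap h.φ) ht hu h1 k hk

/-- The elementary group is weakly closed. -/
theorem conj_le_E {g : G} {P : Subgroup G} (hP : IsPGroup 2 P) (hEP : h.E ≤ P) (hPC : P ≤ h.C)
    (hg : ∀ x ∈ h.E, g * x * g⁻¹ ∈ P) : g ∈ h.NE := by
  have key : ∀ x ∈ h.E, IsConj h.t x → g * x * g⁻¹ ∈ h.E := by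
    intro x hx hc
    obtain ⟨a, ha⟩ := isConj_iff.1 hc
    have h1 : g * x * g⁻¹ = (g * a) * h.t * (g * a)⁻¹ := by rw [← ha]; group
    obtain ⟨k, hk⟩ := h.conj_mem_W (g := g * a)
      (h1 ▸ Subgroup.mem_centralizer_singleton_iff.1 (hPC (hg x hx)))
    rw [h1, ← hk]
    exact (h.mem_E k).2 (h.φ_mem_E_of_pGroup hP hEP (by rw [hk, ← h1]; exact hg x hx))
  let H : Subgroup G := h.E.comap (MulAut.conj g).toMonoidHom
  have ht : h.t ∈ H := key _ h.t_mem_E (IsConj.refl _)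
  have huE : h.τ uu ∈ h.E := (h.τ_mem_E _).2 (Or.inr (Or.inl rfl))
  have h1E : h.τ u1 ∈ h.E := (h.τ_mem_E _).2 (Or.inr (Or.inr (Or.inl rfl)))
  have hu : h.τ uu ∈ H ∧ h.τ u1 ∈ H := by
    rcases h.exists_conj_uu with e | e
    · refine ⟨key _ huE e, key _ h1E (e.trans (isConj_iff.2 ⟨h.τ cc, h.cc_conj_uu⟩))⟩
    · have e1 : IsConj h.t (h.t * h.τ u1) := e.trans (isConj_iff.2 ⟨h.τ cc, by
        rw [← h.cc_conj_uu]
        nth_rw 2 [← h.cc_conj_t]
        group⟩)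
      have m1 : h.t * h.τ uu ∈ H := key _ (mul_mem h.t_mem_E huE) e
      have m2 : h.t * h.τ u1 ∈ H := key _ (mul_mem h.t_mem_E h1E) e1
      have m1' := mul_mem ht m1
      have m2' := mul_mem ht m2
      rw [← mul_assoc, h.t_sq, one_mul] at m1' m2'
      exact ⟨m1', m2'⟩
  have hle := h.le_of_gen ht hu.1 hu.2
  have he : h.E.map (MulAut.conj g).toMonoidHom = h.E :=
    Subgroup.eq_of_le_of_card_ge (by rintro _ ⟨x, hx, rfl⟩; exact hle hx)
      (Subgroup.card_map_of_injective (MulAut.conj g).injective).ge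
  refine Subgroup.mem_normalizer_iff.2 fun x => ⟨fun hx => hle hx, fun hx => ?_⟩
  rw [← he] at hx
  obtain ⟨y, hy, hyx⟩ := hx
  exact (MulAut.conj g).injective hyx ▸ hy

theorem S_le_NE : (h.S : Subgroup G) ≤ h.NE := fun s hs =>
  h.conj_le_E h.S.2 h.E_le_S h.S_le_C fun _ hx => mul_mem (mul_mem hs (h.E_le_S hx)) (inv_mem hs)

theorem exists_sylow_conj {A : Subgroup G} (hA : IsPGroup 2 A) (hAC : A ≤ h.C) :
    ∃ c ∈ h.C, ∀ a ∈ A, c * a * c⁻¹ ∈ h.S := by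
  haveI : Fact (Nat.Prime 2) := ⟨Nat.prime_two⟩
  obtain ⟨Q, hQ⟩ := (hA.comap_of_injective h.C.subtype h.C.subtype_injective).exists_le_sylow
  obtain ⟨c, hc⟩ := MulAction.exists_smul_eq h.C Q (h.S.subtype h.S_le_C)
  refine ⟨c, c.2, fun a ha => ?_⟩
  have hmem : c * ⟨a, hAC ha⟩ * c⁻¹ ∈ ((h.S.subtype h.S_le_C : Sylow 2 h.C) : Subgroup h.C) := by
    rw [← hc, Sylow.coe_subgroup_smul]
    exact ⟨_, hQ (show (⟨a, hAC ha⟩ : h.C) ∈ A.comap h.C.subtype from ha), rfl⟩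
  exact hmem

theorem exists_NE_conj {x : G} (hx : x ∈ h.E) (hc : IsConj h.t x) :
    ∃ n ∈ h.NE, n * h.t * n⁻¹ = x := by
  obtain ⟨g, hg⟩ := isConj_iff.1 hc
  let A : Subgroup G := h.E.map (MulAut.conj g⁻¹).toMonoidHom
  have hA2 : IsPGroup 2 A := (h.S.2.to_le h.E_le_S).map _
  have hAC : A ≤ h.C := by
    rintro _ ⟨y, hy, rfl⟩
    refine Subgroup.mem_centralizer_singleton_iff.2 ?_
    show g⁻¹ * y * g⁻¹⁻¹ * h.t = h.t * (g⁻¹ * y * g⁻¹⁻¹)
    calc g⁻¹ * y * g⁻¹⁻¹ * h.t = g⁻¹ * (y * (g * h.t * g⁻¹)) * g := by group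
      _ = g⁻¹ * ((g * h.t * g⁻¹) * y) * g := by rw [hg, h.E_comm hy hx]
      _ = h.t * (g⁻¹ * y * g⁻¹⁻¹) := by group
  obtain ⟨c, hc, hcS⟩ := h.exists_sylow_conj hA2 hAC
  have hn : c * g⁻¹ ∈ h.NE := h.conj_le_E h.S.2 h.E_le_S h.S_le_C fun y hy => by
    rw [show c * g⁻¹ * y * (c * g⁻¹)⁻¹ = c * (g⁻¹ * y * g⁻¹⁻¹) * c⁻¹ by group]
    exact hcS _ ⟨y, hy, rfl⟩
  refine ⟨(c * g⁻¹)⁻¹, inv_mem hn, ?_⟩
  have e := Subgroup.mem_centralizer_singleton_iff.1 (inv_mem hc)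
  calc (c * g⁻¹)⁻¹ * h.t * (c * g⁻¹)⁻¹⁻¹ = g * (c⁻¹ * h.t) * c * g⁻¹ := by group
    _ = x := by rw [e, ← hg]; group

theorem classes : ∀ k : K5, inE k → k ≠ 1 → k = zK ∨
    (k ∈ ({(1, uu), (1, u1), (1, u2)} : Set K5)) ∨
    (k ∈ ({zK * (1, uu), zK * (1, u1), zK * (1, u2)} : Set K5)) := by
  intro k hk h1
  rcases split_pair k with e | e <;> rcases (inE_iff k).1 hk with e' | e' | e' | e' <;>
    rw [e'] at e <;> subst e
  · exact absurd rfl h1
  · exact Or.inr (Or.inl (Or.inl rfl))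
  · exact Or.inr (Or.inl (Or.inr (Or.inl rfl)))
  · exact Or.inr (Or.inl (Or.inr (Or.inr rfl)))
  · exact Or.inl (mul_one _)
  · exact Or.inr (Or.inr (Or.inl rfl))
  · exact Or.inr (Or.inr (Or.inr (Or.inl rfl)))
  · exact Or.inr (Or.inr (Or.inr (Or.inr rfl)))

theorem ncard_four : ({zK, (1, uu), (1, u1), (1, u2)} : Set K5).ncard = 4 ∧
    ({zK, zK * (1, uu), zK * (1, u1), zK * (1, u2)} : Set K5).ncard = 4 := by
  constructor <;>
  · rw [Set.ncard_eq_toFinset_card']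
    decide +kernel

theorem conj_mem_E_aux {n y : G} (hn : n ∈ h.NE) (hy : y ∈ h.E) :
    ∃ k, inE k ∧ h.φ k = n * y * n⁻¹ := by
  obtain ⟨k, hk, e⟩ := (Subgroup.mem_normalizer_iff.1 hn y).1 hy
  exact ⟨k, hk, e⟩

/-- All involutions of the elementary group are conjugates of the involution. -/
theorem isConj_of_mem_E {x : G} (hx : x ∈ h.E) (hx1 : x ≠ 1) : IsConj h.t x := by
  classical
  suffices hu : IsConj h.t (h.τ uu) ∧ IsConj h.t (h.t * h.τ uu) by
    obtain ⟨k, hk, rfl⟩ := hx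
    have hk1 : k ≠ 1 := fun e => hx1 (by rw [e, map_one])
    have e2 : h.τ cc * (h.t * h.τ uu) * (h.τ cc)⁻¹ = h.t * h.τ u1 := by
      rw [← h.cc_conj_uu]; nth_rw 2 [← h.cc_conj_t]; group
    have e3 : h.τ cc * (h.t * h.τ u1) * (h.τ cc)⁻¹ = h.t * h.τ u2 := by
      rw [← h.cc_conj_u1]; nth_rw 2 [← h.cc_conj_t]; group
    have a1 := hu.1.trans (isConj_iff.2 ⟨_, h.cc_conj_uu⟩)
    have b1 := hu.2.trans (isConj_iff.2 ⟨_, e2⟩)
    rcases classes k hk hk1 with rfl | (rfl | rfl | rfl) | (rfl | rfl | rfl)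
    · exact IsConj.refl _
    · exact hu.1
    · exact a1
    · exact a1.trans (isConj_iff.2 ⟨_, h.cc_conj_u1⟩)
    · rw [map_mul]; exact hu.2
    · rw [map_mul]; exact b1
    · rw [map_mul]; exact b1.trans (isConj_iff.2 ⟨_, e3⟩)
  let P : K5 → Prop := fun k => IsConj h.t (h.φ k)
  letI act : MulAction h.NE G := MulAction.compHom G
    ((ConjAct.toConjAct : G ≃* ConjAct G).toMonoidHom.comp h.NE.subtype)
  have hsmul : ∀ (n : h.NE) (y : G), n • y = (n : G) * y * (n : G)⁻¹ := fun n y => rfl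
  have horb : MulAction.orbit h.NE h.t = h.φ '' {k | inE k ∧ P k} := by
    ext y
    constructor
    · rintro ⟨n, rfl⟩
      obtain ⟨k, hk, e⟩ := h.conj_mem_E_aux n.2 h.t_mem_E
      refine ⟨k, ⟨hk, isConj_iff.2 ⟨n, e.symm⟩⟩, ?_⟩
      show h.φ k = n • h.t
      rw [e, hsmul]
    · rintro ⟨k, ⟨hk, hP⟩, rfl⟩
      obtain ⟨n, hn, e⟩ := h.exists_NE_conj ((h.mem_E k).2 hk) hP
      exact ⟨⟨n, hn⟩, e⟩
  have hodd : Odd (MulAction.orbit h.NE h.t).ncard := by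
    haveI : Fact (Nat.Prime 2) := ⟨Nat.prime_two⟩
    rw [← MulAction.index_stabilizer]
    have hle : (h.S : Subgroup G).subgroupOf h.NE ≤ MulAction.stabilizer h.NE h.t := fun n hn => by
      rw [MulAction.mem_stabilizer_iff, hsmul, show (n : G) * h.t = h.t * n from h.hS _ hn]
      exact mul_inv_cancel_right _ _
    refine (Nat.odd_iff.2 (Nat.two_dvd_ne_zero.1 h.S.not_dvd_index)).of_dvd_nat
      ((Subgroup.index_dvd_of_le hle).trans ?_)
    exact Subgroup.relIndex_dvd_index_of_le h.S_le_NE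
  rw [horb, Set.ncard_image_of_injective _ h.inj] at hodd
  have hinv : ∀ k, P k → P ((1, cc) * k * (1, cc)⁻¹) := fun k hk =>
    hk.trans (isConj_iff.2 ⟨h.τ cc, by rw [map_mul, map_mul, map_inv]; rfl⟩)
  have hev : ¬ Odd 4 := by decide
  have hval : ((1 : Multiplicative (ZMod 2)), cc) * (1, uu) * (1, cc)⁻¹ = ((1 : Multiplicative (ZMod 2)), u1) ∧
    ((1 : Multiplicative (ZMod 2)), cc) * (1, u1) * (1, cc)⁻¹ = ((1 : Multiplicative (ZMod 2)), u2) ∧
    ((1 : Multiplicative (ZMod 2)), cc) * (1, u2) * (1, cc)⁻¹ = ((1 : Multiplicative (ZMod 2)), uu) ∧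
    ((1 : Multiplicative (ZMod 2)), cc) * (zK * (1, uu)) * (1, cc)⁻¹ = zK * (1, u1) ∧
    ((1 : Multiplicative (ZMod 2)), cc) * (zK * (1, u1)) * (1, cc)⁻¹ = zK * (1, u2) ∧
    ((1 : Multiplicative (ZMod 2)), cc) * (zK * (1, u2)) * (1, cc)⁻¹ = zK * (1, uu) ∧
    inE zK ∧ inE (1, uu) ∧ inE (1, u1) ∧ inE (1, u2) ∧
    inE (zK * (1, uu)) ∧ inE (zK * (1, u1)) ∧ inE (zK * (1, u2)) := by decide +kernel
  obtain ⟨r1, r2, r3, r4, r5, r6, i0, i1, i2, i3, i4, i5, i6⟩ := hval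
  have hP1 : ∀ k, inE k → P k → k ≠ 1 := by
    rintro k - hk rfl
    have hk' : IsConj h.t (h.φ 1) := hk
    rw [map_one, isConj_one_left] at hk'
    exact h.t_ne_one hk'
  have hone : P zK := IsConj.refl _
  by_contra hboth
  rcases h.exists_conj_uu with hu | hu
  · have hB : ¬ P (zK * (1, uu)) := fun hB => hboth ⟨hu, (map_mul h.φ _ _) ▸ hB⟩
    have hset : {k | inE k ∧ P k} = ({zK, (1, uu), (1, u1), (1, u2)} : Set K5) := by
      ext k
      constructor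
      · rintro ⟨hk, hP⟩
        rcases classes k hk (hP1 k hk hP) with e | e | (rfl | rfl | rfl)
        · exact Or.inl e
        · exact Or.inr e
        · exact absurd hP hB
        · exact absurd (r6 ▸ hinv _ (r5 ▸ hinv _ hP)) hB
        · exact absurd (r6 ▸ hinv _ hP) hB
      · have a1 : P (1, u1) := r1 ▸ hinv _ (show P (1, uu) from hu)
        rintro (rfl | rfl | rfl | rfl)
        exacts [⟨i0, hone⟩, ⟨i1, hu⟩, ⟨i2, a1⟩, ⟨i3, r2 ▸ hinv _ a1⟩]
    rw [hset, ncard_four.1] at hodd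
    exact hev hodd
  · have hu' : P (zK * (1, uu)) := show IsConj h.t (h.φ _) by rw [map_mul]; exact hu
    have hA : ¬ P (1, uu) := fun hA => hboth ⟨hA, hu⟩
    have hset : {k | inE k ∧ P k} = ({zK, zK * (1, uu), zK * (1, u1), zK * (1, u2)} : Set K5) := by
      ext k
      constructor
      · rintro ⟨hk, hP⟩
        rcases classes k hk (hP1 k hk hP) with e | (rfl | rfl | rfl) | e
        · exact Or.inl e
        · exact absurd hP hA
        · exact absurd (r3 ▸ hinv _ (r2 ▸ hinv _ hP)) hA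
        · exact absurd (r3 ▸ hinv _ hP) hA
        · exact Or.inr e
      · have a1 : P (zK * (1, u1)) := r4 ▸ hinv _ hu'
        rintro (rfl | rfl | rfl | rfl)
        exacts [⟨i0, hone⟩, ⟨i4, hu'⟩, ⟨i5, a1⟩, ⟨i6, r5 ▸ hinv _ a1⟩]
    rw [hset, ncard_four.2] at hodd
    exact hev hodd

theorem exists_NE_conj' {x : G} (hx : x ∈ h.E) (hx1 : x ≠ 1) : ∃ n ∈ h.NE, n * h.t * n⁻¹ = x :=
  h.exists_NE_conj hx (h.isConj_of_mem_E hx hx1)

/-- Conjugation by an element of the centraliser on the component. -/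
theorem exists_aut {c : G} (hc : c ∈ h.C) :
    ∃ ψ : A5 →* A5, Function.Injective ψ ∧ ∀ a, c * h.τ a * c⁻¹ = h.τ (ψ a) := by
  have hw : ∀ a, ∃ k, h.φ k = c * h.τ a * c⁻¹ := fun a => h.C_normalizes hc ⟨_, rfl⟩
  choose f hf using hw
  have hmul : ∀ a b, f (a * b) = f a * f b := fun a b => h.inj (by
    rw [map_mul, hf, hf, hf, map_mul]; group)
  have h1 : ∀ a, (f a).1 = 1 := by
    intro a
    obtain ⟨x, y, rfl⟩ := prod_squares a
    rw [hmul, hmul, hmul, Prod.fst_mul, Prod.fst_mul, Prod.fst_mul, fst_sq, fst_sq, one_mul]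
  refine ⟨MonoidHom.mk' (fun a => (f a).2) fun a b => by rw [hmul, Prod.snd_mul], fun a b e => ?_,
    fun a => by rw [← hf a]; exact congrArg h.φ (Prod.ext (h1 a) rfl)⟩
  have e' : f a = f b := Prod.ext ((h1 a).trans (h1 b).symm) e
  have := congrArg h.φ e'
  rw [hf, hf] at this
  exact h.τ_inj (mul_left_cancel (mul_right_cancel this))

/-- An element fixing one involution of the four-group fixes the others. -/
theorem fix_u1 {c : G} (hc : c ∈ h.C) (hcN : c ∈ h.NE) (hu : c * h.τ uu * c⁻¹ = h.τ uu) :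
    c * h.τ u1 * c⁻¹ = h.τ u1 := by
  obtain ⟨ψ, hψ, hcψ⟩ := h.exists_aut hc
  by_contra hne
  obtain ⟨n, hn, hnt⟩ := h.exists_NE_conj' ((h.τ_mem_E uu).2 (Or.inr (Or.inl rfl)))
    (fun e => gen_uu.2.2.2.2.1 (h.τ_inj (e.trans (map_one _).symm)))
  -- the plane attached to the fixed involution
  have hplane : ∀ a, inV a → c * (n * h.τ a * n⁻¹) * c⁻¹ = n * h.τ a * n⁻¹ := by
    intro a ha
    have hc' : n⁻¹ * c * n ∈ h.C := Subgroup.mem_centralizer_singleton_iff.2 (by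
      calc n⁻¹ * c * n * h.t = n⁻¹ * (c * (n * h.t * n⁻¹) * c⁻¹) * c * n := by group
        _ = h.t * (n⁻¹ * c * n) := by rw [hnt, hu, ← hnt]; group)
    obtain ⟨ψ', hψ', hcψ'⟩ := h.exists_aut hc'
    have hmemE : n * h.τ a * n⁻¹ ∈ h.E := (Subgroup.mem_normalizer_iff.1 hn _).1 ((h.τ_mem_E a).2 ha)
    obtain ⟨k, hk, hke⟩ := hmemE
    set y := n * h.τ a * n⁻¹ with hy
    -- the displacement of `y`
    have hd : y⁻¹ * (c * y * c⁻¹) = n * h.τ (a⁻¹ * ψ' a) * n⁻¹ := by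
      rw [map_mul, map_inv, ← hcψ' a, hy]; group
    have hk2 : c * y * c⁻¹ = y ∨ y⁻¹ * (c * y * c⁻¹) = h.τ uu := by
      have e0 : c * h.t * c⁻¹ = h.t := by
        rw [Subgroup.mem_centralizer_singleton_iff.1 hc, mul_inv_cancel_right]
      have hu1' : ψ u1 = u2 := by
        have hE1 : c * h.τ u1 * c⁻¹ ∈ h.E :=
          (Subgroup.mem_normalizer_iff.1 hcN _).1 ((h.τ_mem_E u1).2 (Or.inr (Or.inr (Or.inl rfl))))
        rw [hcψ] at hE1
        rw [hcψ] at hu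
        have euu := h.τ_inj hu
        rcases (h.τ_mem_E _).1 hE1 with e | e | e | e
        · exact absurd (hψ (e.trans (map_one ψ).symm)) gen_uu.2.2.2.2.2.1
        · exact absurd (hψ (e.trans euu.symm)) gen_uu.2.2.2.2.2.2.1.symm
        · exact absurd (by rw [hcψ, e]) hne
        · exact e
      have euu : ψ uu = uu := h.τ_inj ((hcψ uu).symm.trans hu)
      have hv : c * h.τ k.2 * c⁻¹ = h.τ k.2 ∨ (h.τ k.2)⁻¹ * (c * h.τ k.2 * c⁻¹) = h.τ uu := by
        rw [hcψ, ← map_inv, ← map_mul]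
        rcases (inE_iff k).1 hk with e | e | e | e <;> rw [e]
        · exact Or.inl (by rw [map_one])
        · exact Or.inl (congrArg h.τ euu)
        · refine Or.inr (congrArg h.τ ?_)
          rw [hu1']
          decide +kernel
        · refine Or.inr (congrArg h.τ ?_)
          rw [show ψ u2 = u1 by
            rw [gen_uu.1, map_mul, euu, hu1', gen_uu.1, ← mul_assoc, gen_uu.2.2.1, one_mul]]
          decide +kernel
      rw [← hke]
      rcases h.φ_pair k with e | e <;> rw [e]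
      · exact hv
      · rw [show c * (h.t * h.τ k.2) * c⁻¹ = h.t * (c * h.τ k.2 * c⁻¹) by
          nth_rw 2 [← e0]; group]
        rcases hv with e' | e'
        · exact Or.inl (by rw [e'])
        · exact Or.inr (by rw [← e']; group)
    refine hk2.resolve_right fun e => ?_
    rw [hd, ← hnt] at e
    have := mul_left_cancel (mul_right_cancel e)
    have h2 := congrArg Prod.fst (h.inj (this : h.φ _ = h.φ zK))
    exact absurd h2 (show ¬ ((1 : Multiplicative (ZMod 2)) = Multiplicative.ofAdd 1) by decide)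
  have htn : c * (n * h.t * n⁻¹) * c⁻¹ = n * h.t * n⁻¹ := by rw [hnt]; exact hu
  let F : Subgroup G :=
    { carrier := {y | c * (n * y * n⁻¹) * c⁻¹ = n * y * n⁻¹}
      one_mem' := by simp
      mul_mem' := fun {a b} ha hb => by
        show c * (n * (a * b) * n⁻¹) * c⁻¹ = n * (a * b) * n⁻¹
        calc c * (n * (a * b) * n⁻¹) * c⁻¹ = (c * (n * a * n⁻¹) * c⁻¹) * (c * (n * b * n⁻¹) * c⁻¹) := by group
          _ = n * (a * b) * n⁻¹ := by rw [ha, hb]; group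
      inv_mem' := fun {a} ha => by
        show c * (n * a⁻¹ * n⁻¹) * c⁻¹ = n * a⁻¹ * n⁻¹
        calc c * (n * a⁻¹ * n⁻¹) * c⁻¹ = (c * (n * a * n⁻¹) * c⁻¹)⁻¹ := by group
          _ = n * a⁻¹ * n⁻¹ := by rw [ha]; group }
  have hall := h.le_of_gen (H := F) htn (hplane _ (Or.inr (Or.inl rfl)))
    (hplane _ (Or.inr (Or.inr (Or.inl rfl))))
  have h1E : n⁻¹ * h.τ u1 * n⁻¹⁻¹ ∈ h.E :=
    (Subgroup.mem_normalizer_iff.1 (inv_mem hn) _).1 ((h.τ_mem_E u1).2 (Or.inr (Or.inr (Or.inl rfl))))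
  have e : c * (n * (n⁻¹ * h.τ u1 * n⁻¹⁻¹) * n⁻¹) * c⁻¹ = n * (n⁻¹ * h.τ u1 * n⁻¹⁻¹) * n⁻¹ :=
    hall h1E
  simp [mul_assoc] at e
  exact hne (by simpa [mul_assoc] using e)

theorem mem_D {c : G} (hc : ∀ k : K5, c * h.φ k * c⁻¹ = h.φ k) : c ∈ h.D := by
  refine Subgroup.mem_centralizer_iff.2 ?_
  rintro _ ⟨k, rfl⟩
  exact (mul_inv_eq_iff_eq_mul.1 (hc k)).symm

theorem D_comm {δ : G} (hδ : δ ∈ h.D) (k : K5) : h.φ k * δ = δ * h.φ k :=
  Subgroup.mem_centralizer_iff.1 hδ _ ⟨k, rfl⟩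

theorem D_le_C : h.D ≤ h.C := fun _ hd =>
  Subgroup.mem_centralizer_singleton_iff.2 (h.D_comm hd zK).symm

/-- An element fixing the four-group pointwise is an element of it times a centralising element. -/
theorem decomp_of_fix {c : G} (hc : c ∈ h.C) (hu : c * h.τ uu * c⁻¹ = h.τ uu)
    (h1 : c * h.τ u1 * c⁻¹ = h.τ u1) : ∃ v, inV v ∧ ∃ δ ∈ h.D, c = h.τ v * δ := by
  obtain ⟨ψ, hψ, hcψ⟩ := h.exists_aut hc
  have euu : ψ uu = uu := h.τ_inj ((hcψ uu).symm.trans hu)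
  have eu1 : ψ u1 = u1 := h.τ_inj ((hcψ u1).symm.trans h1)
  have eu2 : ψ u2 = u2 := by rw [gen_uu.1, map_mul, euu, eu1]
  obtain ⟨-, -, -, -, -, -, -, g1, g2, g3, g4, g5⟩ := gen_uu
  have hpow : ∀ (p : A5) (j : ℕ), (ψ p) ^ j = 1 ↔ p ^ j = 1 := fun p j => by
    rw [← map_pow, map_eq_one_iff ψ hψ]
  obtain ⟨v, hv, hvx, hvy⟩ := adjust (ψ cc) (ψ wp)
    (by rw [← map_mul, ← map_mul, ← pow_three' cc, g3, map_one])
    (by
      have := congrArg ψ g1
      rwa [map_mul, map_mul, map_inv, euu, eu1] at this)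
    (by
      have := congrArg ψ g2
      rwa [map_mul, map_mul, map_inv, eu1, eu2] at this)
    (by rw [← map_mul, g4, map_one])
    (by rw [← map_inv, ← map_mul, ← map_mul, g5, map_inv])
    (fun j => by rw [← hpow (uu * wp), map_mul, euu])
    (fun j => by rw [← hpow (u1 * wp), map_mul, eu1])
  refine ⟨v, hv, (h.τ v)⁻¹ * c, h.mem_D fun k => ?_, by group⟩
  let F : Subgroup A5 :=
    { carrier := {a | ψ a = v * a * v⁻¹}
      one_mem' := by simp
      mul_mem' := fun {a b} ha hb => by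
        show ψ (a * b) = v * (a * b) * v⁻¹
        rw [map_mul, ha, hb]; group
      inv_mem' := fun {a} ha => by
        show ψ a⁻¹ = v * a⁻¹ * v⁻¹
        rw [map_inv, ha]; group }
  have hV : ∀ w, inV w → w ∈ F := fun w hw => by
    show ψ w = v * w * v⁻¹
    rw [(inV_mul _ _ hv hw).2, mul_inv_cancel_right]
    rcases hw with rfl | rfl | rfl | rfl
    exacts [map_one ψ, euu, eu1, eu2]
  have hall : ∀ a, a ∈ F := fun a => by
    obtain ⟨i, j, e, v', w, hv', hw, rfl⟩ := double_coset a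
    exact mul_mem (mul_mem (mul_mem (mul_mem (hV _ hv') (pow_mem hvx.symm _)) (pow_mem hvy.symm _))
      (hV _ hw)) (pow_mem hvx.symm _)
  have ht : c * h.t * c⁻¹ = h.t := by
    rw [Subgroup.mem_centralizer_singleton_iff.1 hc, mul_inv_cancel_right]
  have ha : ∀ a, (h.τ v)⁻¹ * c * h.τ a * ((h.τ v)⁻¹ * c)⁻¹ = h.τ a := fun a => by
    calc (h.τ v)⁻¹ * c * h.τ a * ((h.τ v)⁻¹ * c)⁻¹ = (h.τ v)⁻¹ * (c * h.τ a * c⁻¹) * h.τ v := by group
      _ = (h.τ v)⁻¹ * h.τ (v * a * v⁻¹) * h.τ v := by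
        rw [hcψ, show ψ a = v * a * v⁻¹ from hall a]
      _ = h.τ a := by rw [map_mul, map_mul, map_inv]; group
  rcases h.φ_pair k with e | e <;> rw [e]
  · exact ha _
  · have := Subgroup.mem_centralizer_singleton_iff.1 (inv_mem (h.τ_mem_C v))
    calc (h.τ v)⁻¹ * c * (h.t * h.τ k.2) * ((h.τ v)⁻¹ * c)⁻¹
        = (h.τ v)⁻¹ * (c * h.t * c⁻¹) * c * h.τ k.2 * ((h.τ v)⁻¹ * c)⁻¹ := by group
      _ = h.t * ((h.τ v)⁻¹ * c * h.τ k.2 * ((h.τ v)⁻¹ * c)⁻¹) := by rw [ht, this]; group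
      _ = h.t * h.τ k.2 := by rw [ha]

theorem cc_mem_NE : h.τ cc ∈ h.NE := h.conj_le_E h.S.2 h.E_le_S h.S_le_C fun x hx => by
  obtain ⟨k, hk, rfl⟩ := hx
  rw [τ_apply, ← map_inv, ← map_mul, ← map_mul]
  exact h.hE _ ((cc_norm k hk).1)

/-- Rotations. -/
theorem exists_rot {c : G} (hc : c ∈ h.C) (hcN : c ∈ h.NE) :
    ∃ i : Fin 3, ∃ v, inV v ∧ ∃ δ ∈ h.D, c = (h.τ (cc ^ (i : ℕ)))⁻¹ * (h.τ v * δ) := by
  obtain ⟨ψ, hψ, hcψ⟩ := h.exists_aut hc
  have hV : inV (ψ uu) := (h.τ_mem_E _).1 (by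
    rw [← hcψ]
    exact (Subgroup.mem_normalizer_iff.1 hcN _).1 ((h.τ_mem_E uu).2 (Or.inr (Or.inl rfl))))
  obtain ⟨i, hi⟩ := rot _ hV fun e => gen_uu.2.2.2.2.1 (hψ (e.trans (map_one ψ).symm))
  refine ⟨i, ?_⟩
  set c₁ := h.τ (cc ^ (i : ℕ)) * c with hc₁
  have hcN₁ : c₁ ∈ h.NE := mul_mem (by
    rw [map_pow]
    exact pow_mem (h.cc_mem_NE) _) hcN
  have hu : c₁ * h.τ uu * c₁⁻¹ = h.τ uu := by
    rw [hc₁, show h.τ (cc ^ (i : ℕ)) * c * h.τ uu * (h.τ (cc ^ (i : ℕ)) * c)⁻¹ =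
      h.τ (cc ^ (i : ℕ)) * (c * h.τ uu * c⁻¹) * (h.τ (cc ^ (i : ℕ)))⁻¹ by group, hcψ, ← map_inv,
      ← map_mul, ← map_mul, hi]
  obtain ⟨v, hv, δ, hδ, e⟩ := h.decomp_of_fix (mul_mem (h.τ_mem_C _) hc) hu
    (h.fix_u1 (mul_mem (h.τ_mem_C _) hc) hcN₁ hu)
  exact ⟨v, hv, δ, hδ, by rw [← e]; group⟩

/-- The centraliser is the weak closure times a centralising subgroup. -/
theorem C_decomp {c : G} (hc : c ∈ h.C) : ∃ a, ∃ δ ∈ h.D, c = h.τ a * δ := by
  obtain ⟨ψ, hψ, hcψ⟩ := h.exists_aut hc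
  obtain ⟨g1, g2, g3, g4, g5, g6, g7, -⟩ := gen_uu
  obtain ⟨a, ha1, ha2⟩ := pair_conj (ψ uu) (ψ u1) (by rw [← map_mul, g3, map_one])
    (fun e => g5 (hψ (e.trans (map_one ψ).symm))) (by rw [← map_mul, g4, map_one])
    (fun e => g6 (hψ (e.trans (map_one ψ).symm))) (fun e => g7 (hψ e))
    (by rw [← map_mul, ← map_mul, g2])
  set c₁ := h.τ a * c with hc₁
  have hc₁C : c₁ ∈ h.C := mul_mem (h.τ_mem_C a) hc
  have hconj : ∀ x, c₁ * h.τ x * c₁⁻¹ = h.τ (a * ψ x * a⁻¹) := fun x => by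
    rw [map_mul, map_mul, map_inv, ← hcψ, hc₁]; group
  let H : Subgroup G := h.E.comap (MulAut.conj c₁).toMonoidHom
  have hle : h.E ≤ H := h.le_of_gen (show c₁ * h.t * c₁⁻¹ ∈ h.E by
      rw [Subgroup.mem_centralizer_singleton_iff.1 hc₁C, mul_inv_cancel_right]; exact h.t_mem_E)
    (show c₁ * h.τ uu * c₁⁻¹ ∈ h.E by rw [hconj]; exact (h.τ_mem_E _).2 ha1)
    (show c₁ * h.τ u1 * c₁⁻¹ ∈ h.E by rw [hconj]; exact (h.τ_mem_E _).2 ha2)
  have hN : c₁ ∈ h.NE := h.conj_le_E h.S.2 h.E_le_S h.S_le_C fun x hx => h.E_le_S (hle hx)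
  obtain ⟨i, v, -, δ, hδ, e⟩ := h.exists_rot hc₁C hN
  refine ⟨a⁻¹ * ((cc ^ (i : ℕ))⁻¹ * v), δ, hδ, ?_⟩
  calc c = (h.τ a)⁻¹ * c₁ := by rw [hc₁]; group
    _ = h.τ (a⁻¹ * ((cc ^ (i : ℕ))⁻¹ * v)) * δ := by
      rw [e, map_mul, map_mul, map_inv, map_inv]; group

end Setting

end CfsgLib.WeakClosureJ1
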