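import Cfsg.Agent.Lib.J1Order.Unique.Amalgam
import Cfsg.Agent.Lib.J1Order.Unique.Cent5

/-!
Facts about `A₅` and `2 × A₅` used for a weak closure `2 × A₅`.
-/

set_option autoImplicit false
set_option maxRecDepth 100000
set_option synthInstance.maxSize 4000
set_option synthInstance.maxHeartbeats 400000

namespace CfsgLib.WeakClosureJ1

open CfsgLib.J1Order

/-- The four-group. -/
def inV (b : A5) : Prop := b = 1 ∨ b = uu ∨ b = u1 ∨ b = u2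

instance : DecidablePred inV := fun _ => inferInstanceAs (Decidable (_ ∨ _))

theorem prod_squares : ∀ a : A5, ∃ x y : A5, a = x * x * (y * y) := by decide +kernel

theorem inV_iff : ∀ b : A5, inV b ↔ b * b = 1 ∧ (b : Equiv.Perm (Fin 5)) 4 = 4 := by decide +kernel

theorem pair_conj : ∀ x y : A5, x * x = 1 → x ≠ 1 → y * y = 1 → y ≠ 1 → x ≠ y → x * y = y * x →
    ∃ a : A5, inV (a * x * a⁻¹) ∧ inV (a * y * a⁻¹) := by
  decide +kernel

theorem gen_uu : u2 = uu * u1 ∧ uu * u1 = u1 * uu ∧ uu * uu = 1 ∧ u1 * u1 = 1 ∧ uu ≠ 1 ∧ u1 ≠ 1 ∧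
    uu ≠ u1 ∧ cc * uu * cc⁻¹ = u1 ∧ cc * u1 * cc⁻¹ = u2 ∧ cc ^ 3 = 1 ∧ wp * wp = 1 ∧
    wp * cc * wp⁻¹ = cc⁻¹ := by
  decide +kernel

theorem adjust : ∀ x y : A5, x * x * x = 1 → x * uu * x⁻¹ = u1 → x * u1 * x⁻¹ = u2 → y * y = 1 →
    y * x * y⁻¹ = x⁻¹ →
    (∀ j : Fin 6, ((uu * y) ^ (j : ℕ) = 1 ↔ (uu * wp) ^ (j : ℕ) = 1)) →
    (∀ j : Fin 6, ((u1 * y) ^ (j : ℕ) = 1 ↔ (u1 * wp) ^ (j : ℕ) = 1)) →
    ∃ v : A5, inV v ∧ v * cc * v⁻¹ = x ∧ v * wp * v⁻¹ = y := by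
  decide +kernel

theorem double_coset : ∀ a : A5, ∃ i j : Fin 3, ∃ e : Fin 2, ∃ v w : A5,
    inV v ∧ inV w ∧ a = v * cc ^ (i : ℕ) * wp ^ (e : ℕ) * w * cc ^ (j : ℕ) := by
  decide +kernel

theorem cent_V : ∀ a : A5, a * uu = uu * a → a * u1 = u1 * a → inV a := by decide +kernel

theorem inV_mul : ∀ a b : A5, inV a → inV b → inV (a * b) ∧ a * b = b * a := by decide +kernel

theorem cc_moves : ∀ v : A5, inV v → cc * v = v * cc → v = 1 := by decide +kernel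

theorem cc_V : ∀ v : A5, inV v → inV (cc * v * cc⁻¹) := by decide +kernel

theorem rot : ∀ v : A5, inV v → v ≠ 1 → ∃ i : Fin 3, cc ^ (i : ℕ) * v * (cc ^ (i : ℕ))⁻¹ = uu := by
  decide +kernel

theorem invol_conj : ∀ a : A5, a * a = 1 → a ≠ 1 → ∃ g : A5, g * a * g⁻¹ = uu := by decide +kernel

theorem center_A5 : ∀ a : A5, a * cc = cc * a → a * aa = aa * a → a = 1 := by decide +kernel

theorem V_not_four : ∀ a : A5, inV a → a * a = 1 := by decide +kernel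

end CfsgLib.WeakClosureJ1
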